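import Mathlib
import Cfsg.Agent.H162.CC.Tools
import Cfsg.Agent.H140.OreO.GLConj

/-!
# `CRow p (PSL₃(q))` for `p` not dividing `q` (helper877, for S3828)

* `eq_one_of_eigen`: an element of `C` one lift of which has an eigenvector is trivial;
* `crow_psl3`: pole placement with explicit matrices: `A` the companion matrix of `t³ - a t² + b t - 1` and an explicit
  matrix `D` with the same characteristic polynomial such that `A D e₁ = D A e₁` but `A D ≠ D A`.
-/

set_option autoImplicit false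
set_option linter.unusedSectionVars false

namespace Cfsg.Agent.H877.CRowPSL3

open Matrix Cfsg Cfsg.Agent.H162.CCR Polynomial

section

variable {F : Type*} [Field F]

/-- the stabiliser of the line of `v` -/
def stab {v : Fin 3 → F} (hv : v ≠ 0) : Subgroup (Matrix.SpecialLinearGroup (Fin 3) F) where
  carrier := {g | ∃ μ : F, g.1 *ᵥ v = μ • v}
  mul_mem' := by
    rintro g h ⟨μ, hμ⟩ ⟨ν, hν⟩
    refine ⟨ν * μ, ?_⟩
    change (g.1 * h.1) *ᵥ v = _
    rw [← mulVec_mulVec, hν, mulVec_smul, hμ, smul_smul]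
  one_mem' := ⟨1, by
    change (1 : Matrix (Fin 3) (Fin 3) F) *ᵥ v = _
    rw [one_mulVec, one_smul]⟩
  inv_mem' := by
    rintro g ⟨μ, hμ⟩
    have h1 : (g⁻¹ : Matrix.SpecialLinearGroup (Fin 3) F).1 *ᵥ (g.1 *ᵥ v) = v := by
      rw [mulVec_mulVec]
      have h2 : (g⁻¹ : Matrix.SpecialLinearGroup (Fin 3) F).1 * g.1 = 1 := by
        have := congrArg Subtype.val (inv_mul_cancel g)
        exact this
      rw [h2, one_mulVec]
    have hμ0 : μ ≠ 0 := by
      rintro rfl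
      rw [hμ, zero_smul, mulVec_zero] at h1
      exact hv h1.symm
    refine ⟨μ⁻¹, ?_⟩
    rw [hμ, mulVec_smul] at h1
    rw [eq_inv_smul_iff₀ hμ0, h1]

theorem mem_stab {v : Fin 3 → F} {hv : v ≠ 0} {g : Matrix.SpecialLinearGroup (Fin 3) F} :
    g ∈ stab hv ↔ ∃ μ : F, g.1 *ᵥ v = μ • v := Iff.rfl

/-- the projection to `PSL₃` -/
abbrev pr (F : Type*) [Field F] : Matrix.SpecialLinearGroup (Fin 3) F →* ProjectiveSpecialLinearGroup (Fin 3) F :=
  QuotientGroup.mk' _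

theorem pr_eq_one {g : Matrix.SpecialLinearGroup (Fin 3) F} : pr F g = 1 ↔ ∃ c : F, g.1 = c • (1 : Matrix (Fin 3) (Fin 3) F) := by
  rw [pr, QuotientGroup.mk'_apply, QuotientGroup.eq_one_iff, Matrix.SpecialLinearGroup.mem_center_iff]
  constructor
  · rintro ⟨r, -, hr⟩
    exact ⟨r, by rw [← hr, scalar_apply, smul_one_eq_diagonal]⟩
  · rintro ⟨c, hc⟩
    refine ⟨c, ?_, ?_⟩
    · have h1 := g.2
      rw [hc, det_smul, det_one, mul_one] at h1
      exact h1
    · rw [hc, scalar_apply, smul_one_eq_diagonal]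

theorem stab_ne_top {v : Fin 3 → F} (hv : v ≠ 0) : (stab hv).map (pr F) ≠ ⊤ := by
  intro htop
  obtain ⟨i, hi⟩ : ∃ i, v i ≠ 0 := by
    by_contra hcon
    push Not at hcon
    exact hv (funext hcon)
  obtain ⟨j, hj⟩ : ∃ j : Fin 3, j ≠ i := exists_ne i
  let t : Matrix.SpecialLinearGroup (Fin 3) F := ⟨Matrix.transvection j i 1, det_transvection_of_ne j i hj 1⟩
  have h1 : pr F t ∈ (stab hv).map (pr F) := by rw [htop]; trivial
  obtain ⟨s, ⟨μ, hμ⟩, hst⟩ := h1
  have h2 : pr F (s⁻¹ * t) = 1 := by rw [map_mul, map_inv, hst, inv_mul_cancel]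
  obtain ⟨c, hc⟩ := pr_eq_one.1 h2
  have h3 : t.1 = s.1 * (c • (1 : Matrix (Fin 3) (Fin 3) F)) := by
    rw [← hc]
    have := congrArg Subtype.val (mul_inv_cancel_left s t)
    exact this.symm
  have h4 : t.1 *ᵥ v = (c * μ) • v := by
    rw [h3, mul_smul_comm, mul_one, smul_mulVec, hμ, smul_smul]
  have h5 : t.1 *ᵥ v = v + Pi.single j (v i) := by
    change (Matrix.transvection j i 1) *ᵥ v = _
    rw [Matrix.transvection, add_mulVec, one_mulVec]
    congr 1
    rw [single_mulVec, one_mul]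
    rfl
  rw [h5] at h4
  have h6 := congrFun h4 i
  have h7 := congrFun h4 j
  simp only [Pi.add_apply, Pi.smul_apply, smul_eq_mul, Pi.single_eq_same,
    Pi.single_eq_of_ne (Ne.symm hj), add_zero] at h6 h7
  have h8 : c * μ = 1 := by
    have : (c * μ - 1) * v i = 0 := by linear_combination -h6
    rcases mul_eq_zero.1 this with h | h
    · linear_combination h
    · exact absurd h hi
  rw [h8, one_mul] at h7
  exact hi (by linear_combination h7)

theorem pow_aux (μ : F) (X : Matrix (Fin 3) (Fin 3) F) (hX : X * X = 0) (n : ℕ) :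
    (μ • (1 : Matrix (Fin 3) (Fin 3) F) + X) ^ (n + 1) = μ ^ (n + 1) • 1 + (((n + 1 : ℕ) : F) * μ ^ n) • X := by
  induction n with
  | zero => simp
  | succ n ih =>
    rw [pow_succ, ih]
    have h1 : (μ ^ (n + 1) • (1 : Matrix (Fin 3) (Fin 3) F) + (((n + 1 : ℕ) : F) * μ ^ n) • X) *
        (μ • (1 : Matrix (Fin 3) (Fin 3) F) + X) = (μ ^ (n + 1) * μ) • (1 : Matrix (Fin 3) (Fin 3) F) +
        (μ ^ (n + 1) + (((n + 1 : ℕ) : F) * μ ^ n) * μ) • X := by
      rw [add_mul, mul_add, mul_add, smul_mul_assoc, smul_mul_assoc, smul_mul_assoc, smul_mul_assoc, one_mul, one_mul,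
        mul_smul_comm, mul_one, hX, smul_zero, add_zero, smul_smul, smul_smul, add_smul, add_assoc]
    rw [h1]
    have h2 : μ ^ (n + 1) + ((n + 1 : ℕ) : F) * μ ^ n * μ = ((n + 1 + 1 : ℕ) : F) * μ ^ (n + 1) := by
      push_cast
      ring
    rw [h2, ← pow_succ]

theorem eq_one_of_pow {G : Type*} [Group G] {x : G} {N p k : ℕ} (hN : x ^ N = 1) (hp : p.Prime) (hpN : ¬ p ∣ N)
    (hx : orderOf x = p ^ k) : x = 1 := by
  have h1 : orderOf x ∣ N := orderOf_dvd_of_pow_eq_one hN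
  have h2 : (p ^ k).Coprime N := Nat.Coprime.pow_left k ((Nat.Prime.coprime_iff_not_dvd hp).2 hpN)
  rw [← hx] at h2
  exact orderOf_eq_one_iff.1 (Nat.eq_one_of_dvd_coprimes h2 dvd_rfl h1)

variable [Fintype F]

/-- a scalar plus a square zero matrix -/
theorem pr_pow (A : Matrix.SpecialLinearGroup (Fin 3) F) (μ : F) {X : Matrix (Fin 3) (Fin 3) F} (hX : X * X = 0)
    (hA : A.1 = μ • 1 + X) : (pr F A) ^ Fintype.card F = 1 := by
  obtain ⟨n, hn⟩ : ∃ n, Fintype.card F = n + 1 := ⟨Fintype.card F - 1, by have := Fintype.card_pos (α := F); omega⟩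
  rw [← map_pow, pr_eq_one]
  refine ⟨μ ^ Fintype.card F, ?_⟩
  have h1 : (A ^ Fintype.card F).1 = A.1 ^ Fintype.card F := rfl
  have h2 : ((n + 1 : ℕ) : F) = 0 := by rw [← hn]; exact FiniteField.cast_card_eq_zero F
  rw [h1, hA, hn, pow_aux μ X hX, h2, zero_mul, zero_smul, add_zero]

theorem det_trans {v φ : Fin 3 → F} (h : φ ⬝ᵥ v = 0) : (1 + vecMulVec v φ).det = 1 := by
  rw [vecMulVec_eq Unit, det_one_add_replicateCol_mul_replicateRow, h, add_zero]

/-- the transvections with centre `v` -/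
def tv {v φ : Fin 3 → F} (h : φ ⬝ᵥ v = 0) : Matrix.SpecialLinearGroup (Fin 3) F := ⟨1 + vecMulVec v φ, det_trans h⟩

theorem vecMulVec_mulVec' (u v w : Fin 3 → F) : vecMulVec u v *ᵥ w = (v ⬝ᵥ w) • u := by
  rw [vecMulVec_mulVec]
  exact op_smul_eq_smul _ _

theorem tv_mul {v φ ψ : Fin 3 → F} (h : φ ⬝ᵥ v = 0) :
    (1 + vecMulVec v φ) * (1 + vecMulVec v ψ) = 1 + vecMulVec v (φ + ψ) := by
  rw [add_mul, one_mul, mul_add, mul_one, vecMulVec_mul_vecMulVec, h, zero_smul, vecMulVec_zero, add_zero,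
    vecMulVec_add]
  abel

theorem tv_inv {v φ : Fin 3 → F} (h : φ ⬝ᵥ v = 0) : ((tv h)⁻¹ : Matrix.SpecialLinearGroup (Fin 3) F).1 = 1 + vecMulVec v (-φ) := by
  have h1 : (tv h).1 * (1 + vecMulVec v (-φ)) = 1 := by
    change (1 + vecMulVec v φ) * _ = 1
    rw [tv_mul h, add_neg_cancel, vecMulVec_zero, add_zero]
  have h2 : ((tv h)⁻¹ : Matrix.SpecialLinearGroup (Fin 3) F).1 * (tv h).1 = 1 :=
    congrArg Subtype.val (inv_mul_cancel (tv h))
  calc ((tv h)⁻¹ : Matrix.SpecialLinearGroup (Fin 3) F).1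
      = ((tv h)⁻¹ : Matrix.SpecialLinearGroup (Fin 3) F).1 * ((tv h).1 * (1 + vecMulVec v (-φ))) := by rw [h1, mul_one]
    _ = 1 + vecMulVec v (-φ) := by rw [← mul_assoc, h2, one_mul]

/-- **An element of `C` with an eigenvector is trivial.** -/
theorem eq_one_of_eigen {p : ℕ} [hpp : Fact p.Prime] (hp : ¬ p ∣ Fintype.card F)
    {C : Set (ProjectiveSpecialLinearGroup (Fin 3) F)} (hC : Min p C) {A : Matrix.SpecialLinearGroup (Fin 3) F}
    (hA : pr F A ∈ C) {v : Fin 3 → F} (hv : v ≠ 0) {μ : F} (hμ : A.1 *ᵥ v = μ • v) : pr F A = 1 := by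
  have hAH : pr F A ∈ (stab hv).map (pr F) := ⟨A, ⟨μ, hμ⟩, rfl⟩
  have hO := hC.loc _ (stab_ne_top hv) _ hA hAH
  have hBA : (A⁻¹ : Matrix.SpecialLinearGroup (Fin 3) F).1 * A.1 = 1 := congrArg Subtype.val (inv_mul_cancel A)
  have hAB : A.1 * (A⁻¹ : Matrix.SpecialLinearGroup (Fin 3) F).1 = 1 := congrArg Subtype.val (mul_inv_cancel A)
  set B : Matrix (Fin 3) (Fin 3) F := (A⁻¹ : Matrix.SpecialLinearGroup (Fin 3) F).1 with hB
  have hBv : μ • (B *ᵥ v) = v := by
    rw [← mulVec_smul, ← hμ, mulVec_mulVec, hBA, one_mulVec]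
  -- functionals vanishing at `v`
  have key : ∀ φ : Fin 3 → F, φ ⬝ᵥ v = 0 → φ ᵥ* A.1 = μ • φ := by
    intro φ hφ
    have hu : pr F (tv hφ) ∈ (stab hv).map (pr F) := by
      refine ⟨tv hφ, ⟨1, ?_⟩, rfl⟩
      change (1 + vecMulVec v φ) *ᵥ v = _
      rw [add_mulVec, one_mulVec, vecMulVec_mulVec', hφ, zero_smul, add_zero, one_smul]
    have hE : (⟨pr F (A * tv hφ * A⁻¹ * (tv hφ)⁻¹), by
        rw [map_mul, map_mul, map_mul, map_inv, map_inv]
        exact mul_mem (mul_mem (mul_mem hAH hu) (inv_mem hAH)) (inv_mem hu)⟩ : (stab hv).map (pr F)) ∈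
        pCore p ((stab hv).map (pr F)) := by
      have h1 := mul_mem hO ((Cfsg.Agent.Lib.Cores.pCore_normal p).conj_mem _ (inv_mem hO)
        (⟨pr F (tv hφ), hu⟩ : (stab hv).map (pr F)))
      convert h1 using 1
      apply Subtype.ext
      change pr F (A * tv hφ * A⁻¹ * (tv hφ)⁻¹) = pr F A * (pr F (tv hφ) * (pr F A)⁻¹ * (pr F (tv hφ))⁻¹)
      rw [map_mul, map_mul, map_mul, map_inv, map_inv]
      group
    have hχ : (μ • (φ ᵥ* B)) ⬝ᵥ v = 0 := by
      rw [smul_dotProduct, ← dotProduct_mulVec, ← dotProduct_smul, hBv, hφ]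
    have hE1 : (A * tv hφ * A⁻¹ * (tv hφ)⁻¹).1 = 1 + vecMulVec v (μ • (φ ᵥ* B) + -φ) := by
      change A.1 * (1 + vecMulVec v φ) * B * ((tv hφ)⁻¹ : Matrix.SpecialLinearGroup (Fin 3) F).1 = _
      have h1 : A.1 * (1 + vecMulVec v φ) * B = 1 + vecMulVec v (μ • (φ ᵥ* B)) := by
        rw [mul_add, mul_one, add_mul, hAB, mul_vecMulVec, hμ, vecMulVec_mul, smul_vecMulVec, ← vecMulVec_smul]
      rw [tv_inv, h1, tv_mul hχ]
    have hψ : (μ • (φ ᵥ* B) + -φ) ⬝ᵥ v = 0 := by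
      rw [add_dotProduct, neg_dotProduct, hχ, hφ, neg_zero, add_zero]
    have hEp : (pr F (A * tv hφ * A⁻¹ * (tv hφ)⁻¹)) ^ Fintype.card F = 1 := by
      refine pr_pow _ 1 (X := vecMulVec v (μ • (φ ᵥ* B) + -φ)) ?_ (by rw [hE1, one_smul])
      rw [vecMulVec_mul_vecMulVec, hψ, zero_smul, vecMulVec_zero]
    obtain ⟨k, hk⟩ := (IsPGroup.iff_orderOf.1 (Cfsg.Agent.Lib.Cores.pCore_isPGroup p)) ⟨_, hE⟩
    have hE0 : pr F (A * tv hφ * A⁻¹ * (tv hφ)⁻¹) = 1 := by
      refine eq_one_of_pow hEp hpp.out hp (k := k) ?_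
      rw [← hk, ← Subgroup.orderOf_coe, ← Subgroup.orderOf_coe]
    obtain ⟨c, hc⟩ := pr_eq_one.1 hE0
    rw [hE1] at hc
    have h2 : c • v = v := by
      have h3 := congrArg (fun M : Matrix (Fin 3) (Fin 3) F => M *ᵥ v) hc
      simp only [add_mulVec, one_mulVec, smul_mulVec, vecMulVec_mulVec', hψ, zero_smul, add_zero] at h3
      exact h3.symm
    have h3 : c = 1 := by
      by_contra hne
      have h4 : (c - 1) • v = 0 := by rw [sub_smul, h2, one_smul, sub_self]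
      exact hv ((smul_eq_zero.1 h4).resolve_left (sub_ne_zero.2 hne))
    rw [h3, one_smul, add_eq_left] at hc
    have h4 : μ • (φ ᵥ* B) + -φ = 0 := by
      funext j
      obtain ⟨i, hi⟩ : ∃ i, v i ≠ 0 := by
        by_contra hcon
        push Not at hcon
        exact hv (funext hcon)
      have h5 := congrFun (congrFun hc i) j
      rw [vecMulVec_apply] at h5
      exact (mul_eq_zero.1 h5).resolve_left hi
    have h5 : μ • (φ ᵥ* B) = φ := by rwa [add_neg_eq_zero] at h4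
    calc φ ᵥ* A.1 = (μ • (φ ᵥ* B)) ᵥ* A.1 := by rw [h5]
      _ = μ • φ := by rw [smul_vecMul, vecMul_vecMul, hBA, vecMul_one]
  -- `A - μ` has square zero
  obtain ⟨i, hi⟩ : ∃ i, v i ≠ 0 := by
    by_contra hcon
    push Not at hcon
    exact hv (funext hcon)
  have hXv : (A.1 - μ • (1 : Matrix (Fin 3) (Fin 3) F)) *ᵥ v = 0 := by
    rw [sub_mulVec, smul_mulVec, one_mulVec, hμ, sub_self]
  have hXw : ∀ w : Fin 3 → F, (A.1 - μ • (1 : Matrix (Fin 3) (Fin 3) F)) *ᵥ w =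
      (((A.1 - μ • (1 : Matrix (Fin 3) (Fin 3) F)) *ᵥ w) i * (v i)⁻¹) • v := by
    intro w
    funext j
    have h1 := key (v i • Pi.single j 1 - v j • Pi.single i 1) (by
      rw [sub_dotProduct, smul_dotProduct, smul_dotProduct, single_one_dotProduct, single_one_dotProduct]
      simp only [smul_eq_mul]
      ring)
    have h2 : (v i • (Pi.single j 1 : Fin 3 → F) - v j • Pi.single i 1) ⬝ᵥ
        ((A.1 - μ • (1 : Matrix (Fin 3) (Fin 3) F)) *ᵥ w) = 0 := by
      rw [sub_mulVec, dotProduct_sub, smul_mulVec, one_mulVec, dotProduct_mulVec, h1, smul_dotProduct,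
        dotProduct_smul, sub_self]
    rw [sub_dotProduct, smul_dotProduct, smul_dotProduct, single_one_dotProduct, single_one_dotProduct] at h2
    simp only [smul_eq_mul, Pi.smul_apply] at h2 ⊢
    field_simp
    linear_combination h2
  have hXX : (A.1 - μ • (1 : Matrix (Fin 3) (Fin 3) F)) * (A.1 - μ • (1 : Matrix (Fin 3) (Fin 3) F)) = 0 := by
    rw [← Matrix.toLin'.map_eq_zero_iff, Matrix.toLin'_mul]
    apply LinearMap.ext
    intro w
    rw [LinearMap.comp_apply, Matrix.toLin'_apply, Matrix.toLin'_apply, hXw w, mulVec_smul, hXv, smul_zero]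
    rfl
  obtain ⟨k, hk⟩ := hC.pel _ hA
  exact eq_one_of_pow (pr_pow A μ hXX (by abel)) hpp.out hp hk

omit [Fintype F] in
theorem charpoly_three (M : Matrix (Fin 3) (Fin 3) F) : M.charpoly = X ^ 3 - C (M 0 0 + M 1 1 + M 2 2) * X ^ 2 +
    C (M 0 0 * M 1 1 - M 0 1 * M 1 0 + (M 0 0 * M 2 2 - M 0 2 * M 2 0) + (M 1 1 * M 2 2 - M 1 2 * M 2 1)) * X -
    C M.det := by
  rw [Matrix.charpoly, det_fin_three, det_fin_three]
  simp [charmatrix_apply]
  ring

omit [Fintype F] in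
theorem irreducible_of (A : Matrix (Fin 3) (Fin 3) F) (h : ∀ v : Fin 3 → F, v ≠ 0 → ∀ μ : F, A *ᵥ v ≠ μ • v) :
    Irreducible A.charpoly := by
  classical
  refine Polynomial.irreducible_of_degree_le_three_of_not_isRoot ?_ ?_
  · rw [charpoly_natDegree_eq_dim]
    simp
  · intro x hx
    have h1 : (scalar (Fin 3) x - A).det = 0 := by
      rw [← Matrix.eval_charpoly]
      exact hx
    obtain ⟨v, hv, hv1⟩ := Matrix.exists_mulVec_eq_zero_iff.2 h1
    apply h v hv x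
    rw [sub_mulVec, sub_eq_zero, scalar_apply, ← smul_one_eq_diagonal, smul_mulVec, one_mulVec] at hv1
    exact hv1.symm

/-- elements with the same irreducible characteristic polynomial -/
theorem mem_of_charpoly {p : ℕ} {C : Set (ProjectiveSpecialLinearGroup (Fin 3) F)} (hC : Min p C)
    {A A' : Matrix.SpecialLinearGroup (Fin 3) F} (hA : pr F A ∈ C) (hirr : Irreducible A.1.charpoly)
    (h : A'.1.charpoly = A.1.charpoly) : pr F A' ∈ C := by
  obtain ⟨K, hK, hd⟩ := Cfsg.Agent.H140.OreO.exists_conj_matrix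
    (Matrix.SpecialLinearGroup.toGL A') (Matrix.SpecialLinearGroup.toGL A) h hirr 1 one_ne_zero
  let K' : Matrix.SpecialLinearGroup (Fin 3) F := ⟨K.1, hd⟩
  have h1 : A' * K' = K' * A := by
    apply Subtype.ext
    have h2 : Matrix.SpecialLinearGroup.toGL A' * K = K * Matrix.SpecialLinearGroup.toGL A := by
      rw [hK]; group
    exact congrArg Units.val h2
  have h2 : A' = K' * A * K'⁻¹ := by rw [← h1]; group
  rw [h2, map_mul, map_mul, map_inv]
  exact hC.conj _ _ hA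

theorem comm_of {p : ℕ} [hpp : Fact p.Prime] (hp : ¬ p ∣ Fintype.card F)
    {C : Set (ProjectiveSpecialLinearGroup (Fin 3) F)} (hC : Min p C) {A D : Matrix.SpecialLinearGroup (Fin 3) F}
    (hA : pr F A ∈ C) (hD : pr F D ∈ C) {v : Fin 3 → F} (hv : v ≠ 0)
    (h : (A.1 * D.1) *ᵥ v = (D.1 * A.1) *ᵥ v) : A.1 * D.1 = D.1 * A.1 := by
  have hE : pr F (A⁻¹ * D⁻¹ * A * D) ∈ C := by
    have := hC.comm _ hA _ hD
    rwa [← map_inv, ← map_inv, ← map_mul, ← map_mul, ← map_mul] at this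
  have hEv : (A⁻¹ * D⁻¹ * A * D).1 *ᵥ v = v := by
    have e1 : (A⁻¹ * D⁻¹ * A * D).1 = (A⁻¹ * D⁻¹).1 * (A.1 * D.1) := by
      have : A⁻¹ * D⁻¹ * A * D = (A⁻¹ * D⁻¹) * (A * D) := by group
      exact congrArg Subtype.val this
    have e2 : (A⁻¹ * D⁻¹).1 * (D.1 * A.1) = 1 := by
      have : (A⁻¹ * D⁻¹) * (D * A) = 1 := by group
      exact congrArg Subtype.val this
    rw [e1, ← mulVec_mulVec, h, mulVec_mulVec, e2, one_mulVec]
  have h1 := eq_one_of_eigen hp hC hE hv (μ := 1) (by rw [hEv, one_smul])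
  obtain ⟨c, hc⟩ := pr_eq_one.1 h1
  have h2 : c = 1 := by
    by_contra hne
    rw [hc, smul_mulVec, one_mulVec] at hEv
    have h4 : (c - 1) • v = 0 := by rw [sub_smul, hEv, one_smul, sub_self]
    exact hv ((smul_eq_zero.1 h4).resolve_left (sub_ne_zero.2 hne))
  have h3 : A⁻¹ * D⁻¹ * A * D = 1 := by
    apply Subtype.ext
    rw [hc, h2, one_smul]
    rfl
  have h4 : A * D = D * A := by
    calc A * D = D * A * (A⁻¹ * D⁻¹ * A * D) := by group
      _ = D * A := by rw [h3, mul_one]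
  exact congrArg Subtype.val h4

end

/-- **The row of `PSL₃(q)`, `p` prime to `q`.** -/
theorem crow_psl3 {F : Type} [Field F] [Fintype F] (p : ℕ) [Fact p.Prime] (hp : ¬ p ∣ Fintype.card F) :
    CRow p (ProjectiveSpecialLinearGroup (Fin 3) F) := by
  intro C hC c hc
  by_contra hc1
  obtain ⟨A, rfl⟩ := QuotientGroup.mk'_surjective _ c
  have hirr := irreducible_of A.1 (fun v hv μ hμ => hc1 (eq_one_of_eigen hp hC hc hv hμ))
  obtain ⟨a, ha⟩ : ∃ a, a = A.1 0 0 + A.1 1 1 + A.1 2 2 := ⟨_, rfl⟩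
  obtain ⟨b, hb⟩ : ∃ b, b = A.1 0 0 * A.1 1 1 - A.1 0 1 * A.1 1 0 + (A.1 0 0 * A.1 2 2 - A.1 0 2 * A.1 2 0) +
    (A.1 1 1 * A.1 2 2 - A.1 1 2 * A.1 2 1) := ⟨_, rfl⟩
  have hcA : A.1.charpoly = X ^ 3 - Polynomial.C a * X ^ 2 + Polynomial.C b * X - Polynomial.C 1 := by
    rw [charpoly_three, ← ha, ← hb, A.2]
  let A0 : Matrix.SpecialLinearGroup (Fin 3) F := ⟨!![0, 0, 1; 1, 0, -b; 0, 1, a], by
    rw [det_fin_three]; simp⟩
  have hA0 : pr F A0 ∈ C := by
    refine mem_of_charpoly hC hc hirr ?_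
    rw [hcA, charpoly_three, A0.2]
    simp [A0]
  have he1 : (![1, 0, 0] : Fin 3 → F) ≠ 0 := fun h => one_ne_zero (congrFun h 0)
  -- a matrix with the same characteristic polynomial
  have hmem : ∀ D : Matrix.SpecialLinearGroup (Fin 3) F, D.1 0 0 + D.1 1 1 + D.1 2 2 = a →
      D.1 0 0 * D.1 1 1 - D.1 0 1 * D.1 1 0 + (D.1 0 0 * D.1 2 2 - D.1 0 2 * D.1 2 0) +
        (D.1 1 1 * D.1 2 2 - D.1 1 2 * D.1 2 1) = b → pr F D ∈ C := by
    intro D h1 h2
    refine mem_of_charpoly hC hc hirr ?_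
    rw [hcA, charpoly_three, h1, h2, D.2]
  -- the generic matrix
  let D : Matrix.SpecialLinearGroup (Fin 3) F := ⟨!![1, 0, a - b; 1, 1, -(3 - 2 * a + b); 0, 1, a - 2], by
    rw [det_fin_three]; simp; ring⟩
  have hD : pr F D ∈ C := by
    refine hmem D ?_ ?_
    · simp [D]; ring
    · simp [D]; ring
  have h1 : A0.1 * D.1 = D.1 * A0.1 := by
    refine comm_of hp hC hA0 hD he1 ?_
    funext i
    fin_cases i <;> simp [A0, D, Matrix.mul_apply, mulVec, dotProduct, Fin.sum_univ_three]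
  have h2 := congrFun (congrFun h1 2) 1
  have h3 := congrFun (congrFun h1 1) 1
  have h4 := congrFun (congrFun h1 0) 1
  simp [A0, D, Matrix.mul_apply, Fin.sum_univ_three] at h2 h3 h4
  have h30 : (3 : F) = 0 := by linear_combination h2
  have ha0 : a = 0 := by linear_combination a * h30 - h3 - h30
  have hb0 : b = -1 := by linear_combination h4 + ha0
  -- the special matrix
  let E : Matrix.SpecialLinearGroup (Fin 3) F := ⟨!![0, 1, 0; 0, 1, 1; 1, 0, -1], by
    rw [det_fin_three]; simp⟩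
  have hE : pr F E ∈ C := by
    refine hmem E ?_ ?_
    · simp [E, ha0]
    · simp [E, hb0]
  have h5 : A0.1 * E.1 = E.1 * A0.1 := by
    refine comm_of hp hC hA0 hE he1 ?_
    funext i
    fin_cases i <;> simp [A0, E, Matrix.mul_apply, mulVec, dotProduct, Fin.sum_univ_three, ha0, hb0]
  have h6 := congrFun (congrFun h5 2) 1
  simp [A0, E, Matrix.mul_apply, Fin.sum_univ_three, ha0, hb0] at h6
  have h7 : (1 : F) = 0 := by linear_combination h30 - h6
  exact one_ne_zero h7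

end Cfsg.Agent.H877.CRowPSL3
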