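import Cfsg.Agent.H877.PQROrthTool
import Cfsg.Agent.H877.RegOmTool
import Cfsg.Agent.H953.Index
import Cfsg.Agent.ClassicalGeometry.PSL2Basic
import Cfsg.Agent.S0243
import Cfsg.Agent.S0248
import Cfsg.Agent.S0249
import Cfsg.Agent.S0278
import Cfsg.Agent.S0280
import Cfsg.Agent.S0283
import Cfsg.Agent.S0292
import Cfsg.Agent.S0293
import Cfsg.Agent.S0294

/-!
# S3988: the rows of the orthogonal groups (helper877, task 2730)
-/

set_option autoImplicit false
set_option linter.unusedSectionVars false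
set_option linter.style.haveILetI false

namespace Cfsg.Agent.H877.PQROrth

open QuadraticMap Cfsg
open Cfsg.Agent.LieClassical.OrthCore Cfsg.Agent.LieClassical.OrthForms Cfsg.Agent.H182.Sign Cfsg.Agent.H522.FpfEmb
open Cfsg.Agent.H562.PQR

section

variable {ι : Type} [Fintype ι] [DecidableEq ι] {F : Type} [Field F] [Finite F] {Q : QuadraticForm F (ι → F)}
  {n m : ℕ} {ε ε₀ : ℤ} {p : ℕ}

theorem coprime_pow_sub {q i : ℕ} (hq : 1 < q) (hi : 1 ≤ i) : Nat.Coprime q (q ^ i - 1) := by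
  have h1 : 1 ≤ q ^ i := Nat.one_le_pow _ _ (by omega)
  have h2 : Nat.Coprime (q ^ i) (q ^ i - 1) := by
    rw [Nat.coprime_comm]
    have := Nat.coprime_self_add_right (m := q ^ i - 1) (n := 1)
    rw [Nat.sub_add_cancel h1] at this
    exact this.2 (Nat.coprime_one_right _)
  exact Nat.Coprime.coprime_dvd_left (dvd_pow_self q (by omega)) h2

theorem coprime_pow_add {q i : ℕ} (hi : 1 ≤ i) : Nat.Coprime q (q ^ i + 1) := by
  have h2 : Nat.Coprime (q ^ i) (q ^ i + 1) := by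
    rw [Nat.coprime_self_add_right]
    exact Nat.coprime_one_right _
  exact Nat.Coprime.coprime_dvd_left (dvd_pow_self q (by omega)) h2

/-- **`SL_2(q^n)`, `n` even.** -/
theorem psl (hn : Even n) (hn2 : 2 ≤ n) (hC : Sub Q n (-1)) (hQ : Nat.card F ^ (n + 1) ∣ Nat.card (Cfsg.POmega F ⇑Q))
    (hp : p.Prime) (hp2 : p ≠ 2) (hd : p ∣ Nat.card F ^ n * (Nat.card F ^ (2 * n) - 1)) :
    NotMin p (Cfsg.POmega F ⇑Q) := by
  have hF := Finite.one_lt_card (α := F)
  obtain ⟨r, hr⟩ := CharP.exists F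
  haveI : Fact (Nat.Prime r) := ⟨CharP.char_is_prime F r⟩
  obtain ⟨k, hk⟩ := hn
  haveI : NeZero k := ⟨by omega⟩
  let E := FiniteField.Extension F r k
  haveI : CharP E r := charP_of_injective_algebraMap (algebraMap F E).injective r
  let K := FiniteField.Extension E r 2
  letI := Fintype.ofFinite K
  letI : Algebra F K := ((algebraMap E K).comp (algebraMap F E)).toAlgebra
  haveI : IsScalarTower F E K := IsScalarTower.of_algebraMap_eq fun x => rfl
  have h2 : Module.finrank E K = 2 := FiniteField.finrank_extension E r 2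
  have hcard : Fintype.card K = Nat.card F ^ n := by
    rw [← Nat.card_eq_fintype_card]
    have h3 : Nat.card K = Nat.card E ^ 2 := FiniteField.natCard_extension E r 2
    have h4 : Nat.card E = Nat.card F ^ k := FiniteField.natCard_extension F r k
    rw [h3, h4, ← pow_mul, hk]
    congr 1
    ring
  have hP := (sg_detForm (E := E) (K := K) h2).res (F := F)
  rw [FiniteField.finrank_extension, show k * 2 = n from by omega] at hP
  have hq : 3 < Fintype.card K := by
    rw [hcard]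
    calc 3 < 2 ^ 2 := by norm_num
      _ ≤ Nat.card F ^ 2 := Nat.pow_le_pow_left (by omega) 2
      _ ≤ Nat.card F ^ n := Nat.pow_le_pow_right (by omega) hn2
  let ρ : Matrix.SpecialLinearGroup (Fin 2) K →* Module.End F (Herm E K) :=
    { toFun := fun g => (slRep h2 g).restrictScalars F
      map_one' := by rw [map_one]; rfl
      map_mul' := fun g h => by rw [map_mul]; rfl }
  have hpow : Nat.card F ^ (2 * n) = (Nat.card F ^ n) ^ 2 := by rw [← pow_mul, mul_comm]
  refine hC.notMin hP ρ ?_ ?_ (Cfsg.Agent.TwoFusion.SLTwoFacts.commutator_eq_top hq) hp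
    (Cfsg.Agent.TwoFusion.SLTwoFacts.isSimpleGroup_psl hq) ?_ ?_
  · intro g v
    rw [traceForm_apply, traceForm_apply]
    congr 1
    exact slRep_iso h2 g v
  · intro g hg
    apply slRep_ker h2 g
    apply LinearMap.ext
    intro X
    exact LinearMap.congr_fun hg X
  · have h5 := Cfsg.Agent.ClassicalGeometry.PSL2Basic.card_PSL2_gcd K
    rw [hcard, ← hpow] at h5
    rw [← h5] at hd
    rcases hp.dvd_mul.1 hd with h | h
    · exact h
    · exfalso
      exact hp2 ((Nat.prime_dvd_prime_iff_eq hp Nat.prime_two).1 (h.trans (Nat.gcd_dvd_left _ _)))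
  · rw [Cfsg.Agent.ClassicalGeometry.PSL2Basic.card_SL2, hcard, ← hpow]
    exact not_dvd hF (coprime_pow_sub hF (by omega)) hQ

/-- **`SU_n(q)`, `n` odd.** -/
theorem psu (hn : Odd n) (hn3 : 3 ≤ n) (h32 : ¬ (n = 3 ∧ Nat.card F = 2)) (hC : Sub Q n (-1))
    (hQ : Nat.card F ^ (n * (n - 1) / 2 + 1) ∣ Nat.card (Cfsg.POmega F ⇑Q))
    (hp : p.Prime) (hd : p ∣ Nat.card F ^ n + 1) (hd' : ¬ p ∣ Nat.card F + 1) :
    NotMin p (Cfsg.POmega F ⇑Q) := by
  have hF := Finite.one_lt_card (α := F)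
  obtain ⟨r, hr⟩ := CharP.exists F
  haveI : Fact (Nat.Prime r) := ⟨CharP.char_is_prime F r⟩
  let K := FiniteField.Extension F r 2
  letI := Fintype.ofFinite K
  have h2 : Module.finrank F K = 2 := FiniteField.finrank_extension F r 2
  have hcard : Fintype.card K = Nat.card F ^ 2 := by
    rw [← Nat.card_eq_fintype_card]
    exact FiniteField.natCard_extension F r 2
  have hP := sg_pi (sg_normForm h2) n
  rw [hn.neg_one_pow, mul_one] at hP
  refine hC.notMin hP (suRep F K n) (suRep_iso h2 n) (fun g hg => by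
    rw [suRep_ker n g hg]
    exact one_mem _) (Cfsg.Agent.LieClassical.HermPerfect.commutator_SU_eq_top hcard hn3 h32) hp
    (Cfsg.Agent.S0283.result hcard n hn3 h32) ?_ ?_
  · have h5 := Cfsg.Agent.S0280.result hcard n (by omega)
    have h6 : p ∣ Nat.gcd n (Nat.card F + 1) * ((Nat.card F + 1) * Nat.card (Cfsg.PSU n K (Nat.card F))) := by
      rw [h5]
      refine Dvd.dvd.mul_left ?_ _
      refine Dvd.dvd.trans ?_ (Finset.dvd_prod_of_mem _ (Finset.mem_range.2 (show n - 1 < n by omega)))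
      rw [if_pos (by obtain ⟨k, hk⟩ := hn; exact ⟨k, by omega⟩), Nat.sub_add_cancel (by omega)]
      exact hd
    rcases hp.dvd_mul.1 h6 with h | h
    · exact absurd (h.trans (Nat.gcd_dvd_right _ _)) hd'
    · rcases hp.dvd_mul.1 h with h | h
      · exact absurd h hd'
      · exact h
  · have h5 := Cfsg.Agent.S0278.result hcard n (by omega)
    intro h6
    have h7 : Nat.card (Cfsg.POmega F ⇑Q) ∣ Nat.card F ^ (n * (n - 1) / 2) *
        ∏ i ∈ Finset.range n, (if Even i then Nat.card F ^ (i + 1) + 1 else Nat.card F ^ (i + 1) - 1) := by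
      rw [← h5]
      exact h6.mul_left _
    refine not_dvd hF ?_ hQ h7
    apply Nat.Coprime.prod_right
    intro i _
    split_ifs
    · exact coprime_pow_add (by omega)
    · exact coprime_pow_sub hF (by omega)

/-- **`SL_n(q)`.** -/
theorem psln (hn3 : 3 ≤ n) (hC : Sub Q n 1)
    (hQ : Nat.card F ^ (n * (n - 1) / 2 + 1) ∣ Nat.card (Cfsg.POmega F ⇑Q))
    (hp : p.Prime) (hd : p ∣ Nat.card F ^ n - 1) (hd' : ¬ p ∣ Nat.card F - 1) :
    NotMin p (Cfsg.POmega F ⇑Q) := by
  have hF := Finite.one_lt_card (α := F)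
  letI := Fintype.ofFinite F
  refine hC.notMin (sg_pairForm n) (slnRep F n) (slnRep_iso n) (fun g hg => by
    rw [slnRep_ker n g hg]
    exact one_mem _) (Cfsg.Agent.S0248.result n hn3) hp (Cfsg.Agent.S0249.result n hn3) ?_ ?_
  · have h5 := Cfsg.Agent.S0243.result (F := F) (q := Nat.card F) (by rw [Nat.card_eq_fintype_card]) n (by omega)
    have h6 : p ∣ Nat.gcd n (Nat.card F - 1) *
        ((Nat.card F - 1) * Nat.card (Matrix.ProjectiveSpecialLinearGroup (Fin n) F)) := by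
      rw [h5]
      refine Dvd.dvd.trans ?_ (Finset.dvd_prod_of_mem _ (Finset.mem_univ (⟨0, by omega⟩ : Fin n)))
      rw [pow_zero]
      exact hd
    rcases hp.dvd_mul.1 h6 with h | h
    · exact absurd (h.trans (Nat.gcd_dvd_right _ _)) hd'
    · rcases hp.dvd_mul.1 h with h | h
      · exact absurd h hd'
      · exact h
  · rw [Cfsg.Agent.H953.card_SL n (by omega), ← Nat.card_eq_fintype_card, Finset.sum_range_id]
    refine not_dvd hF ?_ hQ
    apply Nat.Coprime.prod_right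
    intro i hi
    rw [Finset.mem_Icc] at hi
    exact coprime_pow_sub hF (by omega)

/-- the arithmetic -/
theorem core (hm : 3 ≤ m) (hsub : ∀ n ε, 1 ≤ n → n < m → (ε = 1 ∨ ε = -1) → Sub Q n ε)
    (hQ : Nat.card F ^ (m * (m - 1)) ∣ Nat.card (Cfsg.POmega F ⇑Q)) (hp : p.Prime) (hp2 : p ≠ 2)
    (hd : p ∣ Nat.card F ∨ (∃ i, 1 ≤ i ∧ i < m ∧ p ∣ Nat.card F ^ (2 * i) - 1) ∨
      (Sub Q m 1 ∧ p ∣ Nat.card F ^ m - 1) ∨ (Sub Q m (-1) ∧ p ∣ Nat.card F ^ m + 1)) :
    NotMin p (Cfsg.POmega F ⇑Q) := by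
  have hF := Finite.one_lt_card (α := F)
  have h3m : m * 2 ≤ m * (m - 1) := Nat.mul_le_mul_left m (by omega)
  have hle : ∀ k, k ≤ m * (m - 1) → Nat.card F ^ k ∣ Nat.card (Cfsg.POmega F ⇑Q) :=
    fun k hk => (pow_dvd_pow _ hk).trans hQ
  -- the group `SL_2(q^2)`
  have hfour : p ∣ Nat.card F ^ 2 * (Nat.card F ^ (2 * 2) - 1) → NotMin p (Cfsg.POmega F ⇑Q) := fun h =>
    psl (n := 2) even_two le_rfl (hsub 2 (-1) (by norm_num) (by omega) (Or.inr rfl)) (hle _ (by omega)) hp hp2 h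
  by_cases hpF : p ∣ Nat.card F
  · exact hfour ((dvd_pow hpF two_ne_zero).mul_right _)
  have hd := hd.resolve_left hpF
  have hsq : ∀ j, Nat.card F ^ (2 * j) - 1 = (Nat.card F ^ j + 1) * (Nat.card F ^ j - 1) := fun j => by
    have := Nat.sq_sub_sq (Nat.card F ^ j) 1
    rw [one_pow] at this
    rw [← this, mul_comm 2 j, pow_mul]
  obtain ⟨f, hf⟩ : ∃ f, orderOf ((Nat.card F : ℕ) : ZMod p) = f := ⟨_, rfl⟩
  have hkey : ∀ j, p ∣ Nat.card F ^ j - 1 ↔ f ∣ j := fun j => by
    rw [Cfsg.Agent.Lib.Zsigmondy.dvd_pow_sub_one_iff (by omega), hf]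
  have hf0 : f ≠ 0 := by
    rintro rfl
    have h0 : ∀ j, 1 ≤ j → ¬ p ∣ Nat.card F ^ j - 1 := fun j hj h => by
      have := (hkey j).1 h
      rw [zero_dvd_iff] at this
      omega
    rcases hd with ⟨i, hi1, -, hi⟩ | ⟨-, h⟩ | ⟨-, h⟩
    · exact h0 _ (by omega) hi
    · exact h0 _ (by omega) h
    · exact h0 (2 * m) (by omega) (by rw [hsq]; exact h.mul_right _)
  obtain ⟨n, -, hn1, -, -, hfn, hdv⟩ := Cfsg.Agent.H877.RegOm.exists_n hp hp2 hf hf0
  have hnm : n ≤ m := by
    rcases hd with ⟨i, hi1, him, hi⟩ | ⟨-, h⟩ | ⟨-, h⟩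
    · exact (Nat.le_of_dvd hi1 (hdv i hi)).trans him.le
    · exact Nat.le_of_dvd (by omega) (hdv m (by rw [hsq]; exact h.mul_left _))
    · exact Nat.le_of_dvd (by omega) (hdv m (by rw [hsq]; exact h.mul_right _))
  have hp3 : 2 < p := lt_of_le_of_ne hp.two_le (Ne.symm hp2)
  have hS : (f = n ∧ Odd n ∧ Sub Q n 1) ∨ (f = 2 * n ∧ Sub Q n (-1)) := by
    rcases Nat.lt_or_ge n m with hlt | hge
    · rcases hfn with ⟨h1, h2⟩ | h1
      · exact Or.inl ⟨h1, h2, hsub n 1 hn1 hlt (Or.inl rfl)⟩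
      · exact Or.inr ⟨h1, hsub n (-1) hn1 hlt (Or.inr rfl)⟩
    · obtain rfl : n = m := le_antisymm hnm hge
      rcases hd with ⟨i, hi1, him, hi⟩ | ⟨hs, h⟩ | ⟨hs, h⟩
      · have := Nat.le_of_dvd hi1 (hdv i hi)
        omega
      · rcases hfn with ⟨h1, h2⟩ | h1
        · exact Or.inl ⟨h1, h2, hs⟩
        · have := Nat.le_of_dvd (by omega) ((hkey n).1 h)
          omega
      · rcases hfn with ⟨h1, h2⟩ | h1
        · exfalso
          have h3 : p ∣ Nat.card F ^ n - 1 := (hkey n).2 (h1 ▸ dvd_rfl)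
          have h4 : p ∣ (Nat.card F ^ n + 1) - (Nat.card F ^ n - 1) := Nat.dvd_sub h h3
          have h5 : 1 ≤ Nat.card F ^ n := Nat.one_le_pow _ _ (by omega)
          rw [show (Nat.card F ^ n + 1) - (Nat.card F ^ n - 1) = 2 by omega] at h4
          have := Nat.le_of_dvd (by norm_num) h4
          omega
        · exact Or.inr ⟨h1, hs⟩
  have hpn : p ∣ Nat.card F ^ (2 * n) - 1 := (hkey _).2 (by
    rcases hfn with ⟨h1, -⟩ | h1
    · rw [h1]; exact dvd_mul_left _ _
    · rw [h1])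
  have hbn : n * (n - 1) / 2 + 1 ≤ m * (m - 1) := by
    have h1 : n * (n - 1) ≤ m * (m - 1) := Nat.mul_le_mul hnm (by omega)
    omega
  rcases Nat.lt_or_ge n 2 with h1 | h2
  · -- `n = 1`
    obtain rfl : n = 1 := by omega
    apply hfour
    refine Dvd.dvd.mul_left ?_ _
    rw [hkey] at hpn ⊢
    exact hpn.trans (by norm_num)
  rcases Nat.even_or_odd n with hev | hodd
  · rcases hS with ⟨-, h1, -⟩ | ⟨-, h1⟩
    · exact absurd hev (Nat.not_even_iff_odd.2 h1)
    · exact psl hev h2 h1 (hle _ (by omega)) hp hp2 (hpn.mul_left _)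
  have hn3 : 3 ≤ n := by
    obtain ⟨k, hk⟩ := hodd
    omega
  rcases hS with ⟨h1, -, h3⟩ | ⟨h1, h3⟩
  · refine psln hn3 h3 (hle _ hbn) hp ((hkey n).2 (h1 ▸ dvd_rfl)) fun h => ?_
    have h4 : p ∣ Nat.card F ^ 1 - 1 := by rwa [pow_one]
    have := Nat.le_of_dvd (by norm_num) ((hkey 1).1 h4)
    omega
  · have h5 : ¬ p ∣ Nat.card F + 1 := fun h => by
      have h4 : p ∣ Nat.card F ^ (2 * 1) - 1 := by
        rw [hsq, pow_one]
        exact h.mul_right _
      have := Nat.le_of_dvd (by norm_num) ((hkey _).1 h4)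
      omega
    have h6 : p ∣ Nat.card F ^ n + 1 := by
      rw [hsq] at hpn
      rcases hp.dvd_mul.1 hpn with h | h
      · exact h
      · have := Nat.le_of_dvd (by omega) ((hkey n).1 h)
        omega
    refine psu hodd hn3 ?_ h3 (hle _ hbn) hp h6 h5
    rintro ⟨rfl, h7⟩
    rw [h7] at h6 h5
    have h8 : p ∣ 3 ^ 2 := by simpa using h6
    exact h5 (by simpa using hp.dvd_of_dvd_pow h8)

end

/-! ### The families -/

theorem coprime_gcd_four {q A : ℕ} (h : Nat.Coprime q A) : Nat.Coprime q (Nat.gcd 4 A) :=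
  Nat.Coprime.coprime_dvd_right (Nat.gcd_dvd_right _ _) h

theorem row_plus {F : Type} [Field F] [Fintype F] {m : ℕ} (hm : 4 ≤ m) {p : ℕ} (hp : p.Prime) (hp2 : p ≠ 2)
    (hd : p ∣ Nat.card (Cfsg.POmega F (Cfsg.quadFormPlus m F))) :
    NotMin p (Cfsg.POmega F (Cfsg.quadFormPlus m F)) := by
  have hF := Finite.one_lt_card (α := F)
  have hord := Cfsg.Agent.S0293.result (F := F) (q := Nat.card F) (by rw [Nat.card_eq_fintype_card]) m hm
  rw [← coe_plusForm] at hd hord ⊢
  have hs : Sub (plusForm m F) m 1 := Sub.of_sg (sg_plusForm (F := F) m)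
  refine core (m := m) (by omega) (fun n ε h1 h2 h3 => hs.trans h1 h2 h3) ?_ hp hp2 ?_
  · have h1 : Nat.card F ^ (m * (m - 1)) ∣
        Nat.gcd 4 (Nat.card F ^ m - 1) * Nat.card (Cfsg.POmega F ⇑(plusForm m F)) := by
      rw [hord, mul_assoc]
      exact dvd_mul_right _ _
    exact (Nat.Coprime.pow_left _ (coprime_gcd_four (coprime_pow_sub hF (by omega)))).dvd_of_dvd_mul_left h1
  · have h1 := hd.mul_left (Nat.gcd 4 (Nat.card F ^ m - 1))
    rw [hord] at h1
    rcases hp.dvd_mul.1 h1 with h | h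
    · rcases hp.dvd_mul.1 h with h | h
      · exact Or.inl (hp.dvd_of_dvd_pow h)
      · exact Or.inr (Or.inr (Or.inl ⟨hs, h⟩))
    · obtain ⟨i, hi, hd⟩ := (Prime.dvd_finsetProd_iff hp.prime _).1 h
      rw [Finset.mem_range] at hi
      exact Or.inr (Or.inl ⟨i + 1, by omega, by omega, hd⟩)

theorem row_minus {F : Type} [Field F] [Fintype F] {m : ℕ} (hm : 4 ≤ m) {a b : F}
    (hab : ∀ z₁ z₂ : F, z₁ ^ 2 + a * z₁ * z₂ + b * z₂ ^ 2 = 0 → z₁ = 0 ∧ z₂ = 0) {p : ℕ} (hp : p.Prime) (hp2 : p ≠ 2)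
    (hd : p ∣ Nat.card (Cfsg.POmega F (Cfsg.quadFormMinus (m - 1) F a b))) :
    NotMin p (Cfsg.POmega F (Cfsg.quadFormMinus (m - 1) F a b)) := by
  have hF := Finite.one_lt_card (α := F)
  have hord := Cfsg.Agent.S0294.result (F := F) (q := Nat.card F) (by rw [Nat.card_eq_fintype_card]) m hm a b hab
  rw [← coe_minusForm] at hd hord ⊢
  have hs' := sg_minusForm (F := F) (m - 1) hab
  rw [Nat.sub_add_cancel (by omega)] at hs'
  have hs : Sub (minusForm (m - 1) F a b) m (-1) := Sub.of_sg hs'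
  refine core (m := m) (by omega) (fun n ε h1 h2 h3 => hs.trans h1 h2 h3) ?_ hp hp2 ?_
  · have h1 : Nat.card F ^ (m * (m - 1)) ∣
        Nat.gcd 4 (Nat.card F ^ m + 1) * Nat.card (Cfsg.POmega F ⇑(minusForm (m - 1) F a b)) := by
      rw [hord, mul_assoc]
      exact dvd_mul_right _ _
    exact (Nat.Coprime.pow_left _ (coprime_gcd_four (coprime_pow_add (by omega)))).dvd_of_dvd_mul_left h1
  · have h1 := hd.mul_left (Nat.gcd 4 (Nat.card F ^ m + 1))
    rw [hord] at h1
    rcases hp.dvd_mul.1 h1 with h | h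
    · rcases hp.dvd_mul.1 h with h | h
      · exact Or.inl (hp.dvd_of_dvd_pow h)
      · exact Or.inr (Or.inr (Or.inr ⟨hs, h⟩))
    · obtain ⟨i, hi, hd⟩ := (Prime.dvd_finsetProd_iff hp.prime _).1 h
      rw [Finset.mem_range] at hi
      exact Or.inr (Or.inl ⟨i + 1, by omega, by omega, hd⟩)

/-- the odd dimensional form -/
theorem sub_odd {F : Type} [Field F] [Finite F] (m : ℕ) : Sub (oddForm m F) m 1 := by
  let R : QuadraticForm F F := QuadraticMap.linMulLin LinearMap.id LinearMap.id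
  let f : ((Fin m ⊕ Fin m → F) × F) ≃ₗ[F] (Unit ⊕ (Fin m ⊕ Fin m) → F) :=
    { toFun := fun v => Sum.elim (fun _ => v.2) v.1
      map_add' := by
        intro v w
        funext i
        rcases i with i | i <;> rfl
      map_smul' := by
        intro a v
        funext i
        rcases i with i | i <;> rfl
      invFun := fun u => (fun i => u (Sum.inr i), u (Sum.inl ()))
      left_inv := fun v => rfl
      right_inv := fun u => by
        funext i
        rcases i with i | i <;> rfl }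
  refine ⟨_, F, inferInstance, inferInstance, inferInstance, inferInstance, inferInstance, inferInstance, plusForm m F,
    R, f, sg_plusForm (F := F) m, ?_⟩
  rintro ⟨u, w⟩
  rw [prodForm_apply, coe_oddForm, coe_plusForm]
  change (w : F) ^ 2 + _ = _ + w * w
  change (w : F) ^ 2 + Cfsg.quadFormPlus m F u = Cfsg.quadFormPlus m F u + w * w
  ring

theorem row_odd {F : Type} [Field F] [Fintype F] {m : ℕ} (hm : 3 ≤ m) (hodd : Odd (Fintype.card F)) {p : ℕ}
    (hp : p.Prime) (hp2 : p ≠ 2) (hd : p ∣ Nat.card (Cfsg.POmega F (Cfsg.quadFormOdd m F))) :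
    NotMin p (Cfsg.POmega F (Cfsg.quadFormOdd m F)) := by
  have hF := Finite.one_lt_card (α := F)
  have hord := Cfsg.Agent.S0292.result (F := F) (q := Nat.card F) (by rw [Nat.card_eq_fintype_card])
    (by rwa [Nat.card_eq_fintype_card]) m hm
  have h2F : (2 : F) ≠ 0 := (Cfsg.Agent.ClassicalGeometry.PSL2Basic.two_ne_zero_iff_odd F).2 hodd
  rw [← coe_oddForm] at hd hord ⊢
  have hs : Sub (oddForm m F) m 1 := sub_odd m
  have hs' : Sub (oddForm m F) m (-1) := by
    obtain ⟨k, rfl⟩ : ∃ k, m = k + 1 := ⟨m - 1, by omega⟩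
    exact cont_odd h2F k
  refine core (m := m) (by omega) (fun n ε h1 h2 h3 => hs.trans h1 h2 h3) ?_ hp hp2 ?_
  · have h1 : Nat.card F ^ (m * (m - 1)) ∣ 2 * Nat.card (Cfsg.POmega F ⇑(oddForm m F)) := by
      rw [hord]
      refine Dvd.dvd.mul_right (pow_dvd_pow _ ?_) _
      rw [pow_two]
      exact Nat.mul_le_mul_left m (by omega)
    have h2 : Nat.Coprime (Nat.card F) 2 := by
      rw [Nat.coprime_comm, Nat.coprime_two_left, Nat.card_eq_fintype_card]
      exact hodd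
    exact (Nat.Coprime.pow_left _ h2).dvd_of_dvd_mul_left h1
  · have h1 := hd.mul_left 2
    rw [hord] at h1
    rcases hp.dvd_mul.1 h1 with h | h
    · exact Or.inl (hp.dvd_of_dvd_pow h)
    · obtain ⟨i, hi, hdi⟩ := (Prime.dvd_finsetProd_iff hp.prime _).1 h
      rw [Finset.mem_range] at hi
      rcases Nat.lt_or_ge (i + 1) m with hlt | hge
      · exact Or.inr (Or.inl ⟨i + 1, by omega, hlt, hdi⟩)
      · obtain rfl : i + 1 = m := by omega
        have h3 := Nat.sq_sub_sq (Nat.card F ^ (i + 1)) 1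
        rw [one_pow, ← pow_mul, mul_comm (i + 1) 2] at h3
        rw [h3] at hdi
        rcases hp.dvd_mul.1 hdi with h | h
        · exact Or.inr (Or.inr (Or.inr ⟨hs', h⟩))
        · exact Or.inr (Or.inr (Or.inl ⟨hs, h⟩))

universe u

/-- **`PΩ_{2m+1}(q)`.** -/
theorem row_omega_odd {S : Type u} [Group S] (h : Cfsg.IsPOmegaOdd S) : RowOdd S := by
  obtain ⟨F, _, _, m, hm, hodd, ⟨e⟩⟩ := h
  exact RowOdd.congr e.symm fun p hp hp2 hd => Or.inl (row_odd hm hodd hp hp2 hd)

/-- **`PΩ^-_{2m}(q)`.** -/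
theorem row_omega_minus {S : Type u} [Group S] (h : Cfsg.IsPOmegaMinus S) : RowOdd S := by
  obtain ⟨F, _, _, m, a, b, hm, hab, ⟨e⟩⟩ := h
  exact RowOdd.congr e.symm fun p hp hp2 hd => Or.inl (row_minus hm hab hp hp2 hd)

/-- **`PΩ^+_{2m}(q)`.** -/
theorem row_omega_plus {S : Type u} [Group S] (h : Cfsg.IsPOmegaPlus S) : RowOdd S := by
  obtain ⟨F, _, _, m, hm, ⟨e⟩⟩ := h
  exact RowOdd.congr e.symm fun p hp hp2 hd => Or.inl (row_plus hm hp hp2 hd)

end Cfsg.Agent.H877.PQROrth
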