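import Cfsg.Agent.H522.FpfEmbSL
import Cfsg.Agent.H522.FpfEmbSU
import Cfsg.Agent.H562.PQR.Iface

/-!
# S3988, orthogonal groups: tools (helper877)

* `Sub Q n ε` : `Q` is the orthogonal sum of a form of dimension `2n` and sign `ε` and some form;
* `Sub.notMin` : `H` perfect acting by isometries with central kernel on a form of dimension `2n` and sign `ε`,
  `H/Z(H)` simple of order divisible by `p`: `NotMin p (PΩ(Q))`;
* `slnRep` : the action of `SL_n` on `W ⊕ W*`.
-/

set_option autoImplicit false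
set_option linter.unusedSectionVars false
set_option linter.style.haveILetI false

namespace Cfsg.Agent.H877.PQROrth

open QuadraticMap Cfsg
open Cfsg.Agent.LieClassical.OrthCore Cfsg.Agent.LieClassical.OrthForms Cfsg.Agent.H182.Sign Cfsg.Agent.H522.FpfEmb
open Cfsg.Agent.H562.PQR

/-- `Q` is the orthogonal sum of a form of dimension `2n` and sign `ε` and some form -/
def Sub {ι : Type} [Fintype ι] [DecidableEq ι] {F : Type} [Field F] [Finite F] (Q : QuadraticForm F (ι → F))
    (n : ℕ) (ε : ℤ) : Prop :=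
  ∃ (V W : Type) (_ : AddCommGroup V) (_ : Module F V) (_ : Finite V) (_ : AddCommGroup W) (_ : Module F W)
    (_ : Finite W) (P : QuadraticForm F V) (R : QuadraticForm F W) (e : (V × W) ≃ₗ[F] (ι → F)),
    Sg P n ε ∧ ∀ v, Q (e v) = prodForm P R v

section

variable {ι : Type} [Fintype ι] [DecidableEq ι] {F : Type} [Field F] [Finite F] {Q : QuadraticForm F (ι → F)}
  {n m : ℕ} {ε ε₀ : ℤ}

theorem Sub.of_sg (h : Sg Q n ε) : Sub Q n ε := by
  refine ⟨ι → F, PUnit, inferInstance, inferInstance, inferInstance, inferInstance, inferInstance, inferInstance,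
    Q, 0, LinearEquiv.prodUnique, h, fun v => ?_⟩
  rw [prodForm_apply, QuadraticMap.zero_apply, add_zero]
  rfl

theorem Sub.trans (h : Sub Q m ε₀) (hn : 1 ≤ n) (hnm : n < m) (hε : ε = 1 ∨ ε = -1) : Sub Q n ε := by
  obtain ⟨V, W, _, _, _, _, _, _, P, R, e, hP, he⟩ := h
  obtain ⟨ι₁, _, P₁, hP₁⟩ := exists_sg F hn hε
  obtain ⟨ι₂, _, P₂, hP₂⟩ := exists_sg F (n := m - n) (by omega) (ε := ε * ε₀) (by
    rcases hε with rfl | rfl <;> rcases hP.eps with rfl | rfl <;> simp)
  have hs := hP₁.prod hP₂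
  rw [Nat.add_sub_cancel' hnm.le, show ε * (ε * ε₀) = ε₀ by rcases hε with rfl | rfl <;> simp] at hs
  obtain ⟨f, hf⟩ := hs.exists_equiv hP
  refine ⟨ι₁ → F, (ι₂ → F) × W, inferInstance, inferInstance, inferInstance, inferInstance, inferInstance,
    inferInstance, P₁, prodForm P₂ R,
    ((LinearEquiv.prodAssoc F (ι₁ → F) (ι₂ → F) W).symm.trans (f.prodCongr (LinearEquiv.refl F W))).trans e, hP₁, ?_⟩
  rintro ⟨x, y, z⟩
  rw [LinearEquiv.trans_apply, he, prodForm_apply, prodForm_apply, prodForm_apply]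
  change P (f (x, y)) + R z = _
  rw [hf, prodForm_apply, add_assoc]

end

section action

variable {ι : Type} [Fintype ι] [DecidableEq ι] {F : Type} [Field F] [Finite F]
variable {V : Type*} [AddCommGroup V] [Module F V] {W : Type*} [AddCommGroup W] [Module F W]
variable {H : Type*} [Group H]

theorem exists_noncomm (hperf : commutator H = ⊤) (hsim : IsSimpleGroup (H ⧸ Subgroup.center H)) :
    ∃ x y : H ⧸ Subgroup.center H, x * y ≠ y * x := by
  by_contra hab
  push Not at hab
  have h1 : ∀ h : H, h ∈ Subgroup.center H := by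
    have h2 : commutator H ≤ Subgroup.center H := by
      rw [commutator_def, Subgroup.commutator_le]
      intro x _ y _
      rw [← QuotientGroup.eq_one_iff]
      have h3 := hab (QuotientGroup.mk x) (QuotientGroup.mk y)
      rw [commutatorElement_def]
      simp only [QuotientGroup.mk_mul, QuotientGroup.mk_inv]
      rw [h3]
      group
    intro h
    exact h2 (by rw [hperf]; trivial)
  obtain ⟨a, ha⟩ := exists_ne (1 : H ⧸ Subgroup.center H)
  obtain ⟨x, rfl⟩ := QuotientGroup.mk_surjective a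
  exact ha ((QuotientGroup.eq_one_iff x).2 (h1 x))

/-- **Actions by isometries with central kernel.** -/
theorem notMin_of_action [Finite H] {Q : QuadraticForm F (ι → F)} {P : QuadraticForm F V} (e : V ≃ₗ[F] (ι → F))
    (he : ∀ v, Q (e v) = P v) (ρ : H →* Module.End F V) (hρ : ∀ h v, P (ρ h v) = P v)
    (hker : ∀ h, ρ h = 1 → h ∈ Subgroup.center H) (hperf : commutator H = ⊤) {p : ℕ} (hp : p.Prime)
    (hsim : IsSimpleGroup (H ⧸ Subgroup.center H)) (hd : p ∣ Nat.card (H ⧸ Subgroup.center H))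
    (hns : ¬ Nat.card (Cfsg.POmega F ⇑Q) ∣ Nat.card H) : NotMin p (Cfsg.POmega F ⇑Q) := by
  let φ : H →* Cfsg.isometryGroup F ⇑Q := isoHom e he ρ hρ
  have hφ : ∀ h, φ h ∈ Cfsg.Omega F ⇑Q := by
    intro h
    have h1 : h ∈ commutator H := by rw [hperf]; trivial
    have h2 : φ h ∈ (commutator H).map φ := ⟨h, h1, rfl⟩
    have h3 : (commutator H).map φ ≤ commutator (Cfsg.isometryGroup F (⇑Q)) := by
      rw [commutator_def, commutator_def, Subgroup.map_commutator]
      exact Subgroup.commutator_mono le_top le_top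
    exact h3 h2
  let ψ : H →* Cfsg.Omega F ⇑Q := φ.codRestrict _ hφ
  let f : H →* Cfsg.POmega F ⇑Q := (QuotientGroup.mk' (Subgroup.center (Cfsg.Omega F ⇑Q))).comp ψ
  have hψ : ∀ h, ψ h = 1 → h ∈ Subgroup.center H := by
    intro h h1
    apply hker
    apply isoHom_ker e he ρ hρ
    exact congrArg Subtype.val h1
  have hna := exists_noncomm hperf hsim
  refine NotMin.of_hom hna hp hd f (QuotientGroup.mk' (Subgroup.center H)) (QuotientGroup.mk'_surjective _)
    ?_ (fun h => hns (Subgroup.card_dvd_of_surjective f h))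
  intro h hh
  rw [QuotientGroup.ker_mk']
  rw [MonoidHom.mem_ker] at hh
  have h1 : ψ h ∈ Subgroup.center (Cfsg.Omega F ⇑Q) := by
    rw [← QuotientGroup.eq_one_iff]
    exact hh
  apply Cfsg.Agent.LieClassical.Grun.mem_center_of_forall_commutator_mem hperf
  intro g
  apply hψ
  rw [map_mul, map_mul, map_mul, map_inv, map_inv]
  have h2 := Subgroup.mem_center_iff.1 h1 (ψ g)
  rw [← h2, mul_assoc, mul_assoc, mul_inv_cancel_left, mul_inv_cancel]

theorem notMin_of_action_prod [Finite V] [Finite W] [Finite H] {Q : QuadraticForm F (ι → F)} {P : QuadraticForm F V}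
    {R : QuadraticForm F W} (e : (V × W) ≃ₗ[F] (ι → F)) (he : ∀ v, Q (e v) = prodForm P R v)
    (ρ : H →* Module.End F V) (hρ : ∀ h v, P (ρ h v) = P v) (hker : ∀ h, ρ h = 1 → h ∈ Subgroup.center H)
    (hperf : commutator H = ⊤) {p : ℕ} (hp : p.Prime) (hsim : IsSimpleGroup (H ⧸ Subgroup.center H))
    (hd : p ∣ Nat.card (H ⧸ Subgroup.center H)) (hns : ¬ Nat.card (Cfsg.POmega F ⇑Q) ∣ Nat.card H) :
    NotMin p (Cfsg.POmega F ⇑Q) := by
  refine notMin_of_action e he (extEnd.comp ρ) ?_ ?_ hperf hp hsim hd hns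
  · intro h v
    rw [prodForm_apply, prodForm_apply]
    change P (ρ h v.1) + R v.2 = _
    rw [hρ]
  · intro h h1
    apply hker
    ext v
    have h2 := LinearMap.congr_fun h1 (v, 0)
    exact congrArg Prod.fst h2

theorem Sub.notMin [Finite V] [Finite H] {Q : QuadraticForm F (ι → F)} {n : ℕ} {ε : ℤ} (hC : Sub Q n ε)
    {P : QuadraticForm F V} (hP : Sg P n ε) (ρ : H →* Module.End F V) (hρ : ∀ h v, P (ρ h v) = P v)
    (hker : ∀ h, ρ h = 1 → h ∈ Subgroup.center H) (hperf : commutator H = ⊤) {p : ℕ} (hp : p.Prime)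
    (hsim : IsSimpleGroup (H ⧸ Subgroup.center H)) (hd : p ∣ Nat.card (H ⧸ Subgroup.center H))
    (hns : ¬ Nat.card (Cfsg.POmega F ⇑Q) ∣ Nat.card H) : NotMin p (Cfsg.POmega F ⇑Q) := by
  obtain ⟨V', W, _, _, _, _, _, _, P', R, e, hP', he⟩ := hC
  obtain ⟨f, hf⟩ := hP.exists_equiv hP'
  refine notMin_of_action_prod (P := P) (R := R) ((f.prodCongr (LinearEquiv.refl F W)).trans e) ?_ ρ hρ hker hperf hp
    hsim hd hns
  intro v
  rw [LinearEquiv.trans_apply, he, prodForm_apply, prodForm_apply]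
  change P' (f v.1) + R v.2 = _
  rw [hf]

end action

section SLn

variable {F : Type} [Field F] [Finite F]

/-- The action of `SL_n` on `W ⊕ W*`. -/
noncomputable def slnRep (F : Type) [Field F] (n : ℕ) :
    Matrix.SpecialLinearGroup (Fin n) F →* Module.End F ((Fin n → F) × (Fin n → F)) where
  toFun g := (Matrix.toLin' (g : Matrix (Fin n) (Fin n) F)).prodMap
    (Matrix.toLin' ((g⁻¹ : Matrix.SpecialLinearGroup (Fin n) F) : Matrix (Fin n) (Fin n) F).transpose)
  map_one' := by
    rw [inv_one, Matrix.SpecialLinearGroup.coe_one, Matrix.transpose_one, Matrix.toLin'_one]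
    rfl
  map_mul' g h := by
    rw [mul_inv_rev, Matrix.SpecialLinearGroup.coe_mul, Matrix.SpecialLinearGroup.coe_mul, Matrix.transpose_mul,
      Matrix.toLin'_mul, Matrix.toLin'_mul]
    rfl

/-- the natural pairing -/
noncomputable def pairForm (F : Type) [Field F] (n : ℕ) : QuadraticForm F ((Fin n → F) × (Fin n → F)) :=
  (plusForm n F).comp (LinearEquiv.sumArrowLequivProdArrow (Fin n) (Fin n) F F).symm.toLinearMap

theorem pairForm_apply (n : ℕ) (v : (Fin n → F) × (Fin n → F)) : pairForm F n v = v.1 ⬝ᵥ v.2 := by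
  change plusForm n F ((LinearEquiv.sumArrowLequivProdArrow (Fin n) (Fin n) F F).symm v) = _
  rw [coe_plusForm]
  rfl

theorem sg_pairForm (n : ℕ) : Sg (pairForm F n) n 1 :=
  (sg_plusForm (F := F) n).congr (LinearEquiv.sumArrowLequivProdArrow (Fin n) (Fin n) F F) fun v => by
    change plusForm n F ((LinearEquiv.sumArrowLequivProdArrow (Fin n) (Fin n) F F).symm
      ((LinearEquiv.sumArrowLequivProdArrow (Fin n) (Fin n) F F) v)) = _
    rw [LinearEquiv.symm_apply_apply]

theorem slnRep_iso (n : ℕ) (g : Matrix.SpecialLinearGroup (Fin n) F) (v : (Fin n → F) × (Fin n → F)) :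
    pairForm F n (slnRep F n g v) = pairForm F n v := by
  rw [pairForm_apply, pairForm_apply]
  change (g : Matrix (Fin n) (Fin n) F).mulVec v.1 ⬝ᵥ
    (((g⁻¹ : Matrix.SpecialLinearGroup (Fin n) F) : Matrix (Fin n) (Fin n) F).transpose).mulVec v.2 = _
  rw [Matrix.dotProduct_mulVec, Matrix.vecMul_transpose, Matrix.mulVec_mulVec, ← Matrix.SpecialLinearGroup.coe_mul,
    inv_mul_cancel, Matrix.SpecialLinearGroup.coe_one, Matrix.one_mulVec]

theorem slnRep_ker (n : ℕ) (g : Matrix.SpecialLinearGroup (Fin n) F) (h : slnRep F n g = 1) : g = 1 := by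
  apply Subtype.ext
  have h1 : Matrix.toLin' (g : Matrix (Fin n) (Fin n) F) = Matrix.toLin' 1 := by
    apply LinearMap.ext
    intro v
    have h3 := congrArg Prod.fst (LinearMap.congr_fun h (v, 0))
    rw [Matrix.toLin'_one]
    exact h3
  exact Matrix.toLin'.injective h1

end SLn

/-- comparison of the characteristic parts -/
theorem not_dvd {q b c N : ℕ} (hq : 1 < q) (hc : Nat.Coprime q c) (h : q ^ (b + 1) ∣ N) : ¬ N ∣ q ^ b * c := by
  intro h1
  have h2 := h.trans h1
  rw [pow_succ] at h2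
  have h3 := Nat.dvd_of_mul_dvd_mul_left (Nat.pow_pos (by omega)) h2
  have h4 := Nat.Coprime.eq_one_of_dvd hc h3
  omega

end Cfsg.Agent.H877.PQROrth
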