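import Cfsg.Agent.H877.PolSpRow
import Cfsg.Agent.H75.WittE
import Cfsg.Agent.H75.Sg

/-!
# Polar spaces with a group: orthogonal groups (helper877)
-/

set_option autoImplicit false

namespace Cfsg.Agent.H877.Pol

open Matrix MatrixGroups QuadraticMap
open Cfsg.Agent.LieClassical.OrthCore Cfsg.Agent.LieClassical.OrthTrans
open Cfsg.Agent.H75.OrthIdx Cfsg.Agent.ClassicalGeometry.OrthSemi

universe u v

section

variable {F : Type u} {V : Type v} [Field F] [AddCommGroup V] [Module F V] {Q : QuadraticForm F V}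

theorem hp_fam {w v : Fin 2 → V} (hp : HP (polarBilin Q) Q w v) :
    LinearIndependent F (![w 0, w 1, v 0, v 1] : Fin 4 → V) ∧
      ∀ t ∈ Submodule.span F (Set.range (![w 0, w 1, v 0, v 1] : Fin 4 → V)),
        (∀ i, polar Q ((![w 0, w 1, v 0, v 1] : Fin 4 → V) i) t = 0) → t = 0 := by
  have hwv : ∀ i j, polar Q (w i) (v j) = if i = j then 1 else 0 := hp.wv
  have hww : ∀ i j, polar Q (w i) (w j) = 0 := hp.ww
  have hvv : ∀ i j, polar Q (v i) (v j) = 0 := hp.vv
  have hvw : ∀ i j, polar Q (v i) (w j) = if i = j then 1 else 0 := by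
    intro i j
    rw [polar_comm, hwv]
    by_cases hij : i = j
    · rw [if_pos hij, if_pos hij.symm]
    · rw [if_neg hij, if_neg fun h => hij h.symm]
  have key : ∀ c : Fin 4 → F, (∀ i, polar Q ((![w 0, w 1, v 0, v 1] : Fin 4 → V) i)
      (∑ i, c i • (![w 0, w 1, v 0, v 1] : Fin 4 → V) i) = 0) → ∀ i, c i = 0 := by
    intro c hc
    simp only [Fin.sum_univ_four] at hc
    have h0 := hc 0
    have h1 := hc 1
    have h2 := hc 2
    have h3 := hc 3
    simp [polar_add_right, polar_smul_right, hww, hwv, hvw, hvv] at h0 h1 h2 h3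
    intro i
    fin_cases i
    · exact h2
    · exact h3
    · exact h0
    · exact h1
  constructor
  · rw [Fintype.linearIndependent_iff]
    intro c hc
    apply key
    intro i
    rw [hc]
    exact polar_zero_right (Q := Q) _
  · intro t ht hperp
    obtain ⟨c, rfl⟩ := (Submodule.mem_span_range_iff_exists_fun F).1 ht
    have := key c hperp
    exact Finset.sum_eq_zero fun i _ => by rw [this i, zero_smul]

theorem hp_universal [FiniteDimensional F V] [Finite F] (hQ : Nondeg Q) (h2 : (2 : F) ≠ 0)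
    (h6 : 6 ≤ Module.finrank F V) {w v : Fin 2 → V} (hp : HP (polarBilin Q) Q w v) (c : F) :
    ∃ z, Q z = c ∧ ∀ i, polar Q ((![w 0, w 1, v 0, v 1] : Fin 4 → V) i) z = 0 := by
  obtain ⟨hli, hnd⟩ := hp_fam hp
  obtain ⟨T, hT⟩ : ∃ T, T = Submodule.span F (Set.range (![w 0, w 1, v 0, v 1] : Fin 4 → V)) := ⟨_, rfl⟩
  have mT : ∀ i, (![w 0, w 1, v 0, v 1] : Fin 4 → V) i ∈ T := fun i => by rw [hT]; exact Submodule.subset_span ⟨i, rfl⟩
  have hT4 : Module.finrank F T = 4 := by rw [hT, finrank_span_eq_card hli]; rfl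
  have hnd' : ∀ t ∈ T, t ∈ perp Q T → t = 0 := fun t ht ht' => hnd t (by rw [← hT]; exact ht) fun i => ht' _ (mT i)
  have hU := finrank_perp_add hQ T
  obtain ⟨z1, hz1, hz1Q⟩ : ∃ z ∈ perp Q T, Q z ≠ 0 := by
    by_contra hcon
    push Not at hcon
    have h1 := le_perp_of_ts hcon
    rw [perp_perp hQ] at h1
    have h3 : perp Q T = ⊥ := by
      rw [eq_bot_iff]
      intro t ht
      exact hnd' t (h1 ht) ht
    rw [h3, finrank_bot] at hU
    omega
  obtain ⟨T1, hT1⟩ : ∃ T1, T1 = T ⊔ Submodule.span F {z1} := ⟨_, rfl⟩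
  have hT1d : Module.finrank F T1 ≤ 5 := by
    have h1 := Submodule.finrank_add_le_finrank_add_finrank T (Submodule.span F {z1})
    have h3 : Module.finrank F (Submodule.span F {z1}) = 1 := by
      apply finrank_span_singleton
      rintro rfl
      exact hz1Q (QuadraticMap.map_zero Q)
    rw [← hT1] at h1
    omega
  have hU1 := finrank_perp_add hQ T1
  obtain ⟨z2, hz2, hz2Q⟩ : ∃ z ∈ perp Q T1, Q z ≠ 0 := by
    by_contra hcon
    push Not at hcon
    have h1 := le_perp_of_ts hcon
    rw [perp_perp hQ] at h1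
    have h3 : perp Q T1 = ⊥ := by
      rw [eq_bot_iff]
      intro y hy
      have hyT1 := h1 hy
      rw [hT1] at hyT1
      obtain ⟨t, ht, s, hs, hts⟩ := Submodule.mem_sup.1 hyT1
      obtain ⟨a, rfl⟩ := Submodule.mem_span_singleton.1 hs
      have h4 : polar Q z1 y = 0 := hy z1 (by
        rw [hT1]; exact Submodule.mem_sup_right (Submodule.mem_span_singleton_self z1))
      have h5 : polar Q z1 t = 0 := by rw [polar_comm]; exact hz1 t ht
      rw [← hts, polar_add_right, h5, zero_add, polar_smul_right, polar_self', smul_eq_mul] at h4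
      have ha : a = 0 := by
        rcases mul_eq_zero.1 h4 with h6 | h6
        · exact h6
        · exact absurd h6 (mul_ne_zero h2 hz1Q)
      rw [ha, zero_smul, add_zero] at hts
      rw [← hts] at hy ⊢
      exact hnd' t ht fun s hs => hy s (by rw [hT1]; exact Submodule.mem_sup_left hs)
    rw [h3, finrank_bot] at hU1
    omega
  have hz12 : polar Q z1 z2 = 0 := hz2 z1 (by
    rw [hT1]; exact Submodule.mem_sup_right (Submodule.mem_span_singleton_self z1))
  have hz2T : z2 ∈ perp Q T := fun t ht => hz2 t (by rw [hT1]; exact Submodule.mem_sup_left ht)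
  obtain ⟨a, b, hab⟩ := exists_binary (Q z1) (Q z2) c hz1Q hz2Q h2
  refine ⟨a • z1 + b • z2, ?_, fun i => ?_⟩
  · rw [Q_add, QuadraticMap.map_smul, QuadraticMap.map_smul, polar_smul_left, polar_smul_right, hz12]
    simpa using hab
  · rw [polar_add_right, polar_smul_right, polar_smul_right, hz1 _ (mT i), hz2T _ (mT i)]
    simp

theorem orth_tor (hG : Good Q) {x y : V} (hx : Q x = 0) (hy : Q y = 0) (hxy : polar Q x y = 1)
    (hw : ∃ w, Q w ≠ 0 ∧ polar Q x w = 0 ∧ polar Q y w = 0) {d : F} (hd : d ≠ 0) :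
    ∃ g ∈ E Q, g x = (d * d) • x ∧ g y = (d * d)⁻¹ • y ∧ ∀ z, polar Q x z = 0 → polar Q y z = 0 → g z = z := by
  obtain ⟨w, hw, hxw, hyw⟩ := hw
  have hH : Hyp Q x y := ⟨hx, hy, hxy⟩
  have hdw : Q (d • w) ≠ 0 := by
    rw [QuadraticMap.map_smul, smul_eq_mul]
    exact mul_ne_zero (mul_ne_zero hd hd) hw
  have hxdw : polar Q x (d • w) = 0 := by rw [polar_smul_right, hxw, smul_zero]
  have hydw : polar Q y (d • w) = 0 := by rw [polar_smul_right, hyw, smul_zero]
  have hmem : ∀ w, wl Q x y w ∈ E Q := fun w =>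
    (E Q).mul_mem ((E Q).mul_mem (sg_mem_E _ _) (sg_mem_E _ _)) (sg_mem_E _ _)
  refine ⟨wl Q x y (d • w) * wl Q x y w, (E Q).mul_mem (hmem _) (hmem _), ?_, ?_, ?_⟩
  · show wl Q x y (d • w) (wl Q x y w x) = _
    rw [wl_left hH hw hxw hyw, map_smul, wl_right hH hdw hxdw hydw, smul_smul, QuadraticMap.map_smul, smul_eq_mul]
    congr 1
    field_simp
  · show wl Q x y (d • w) (wl Q x y w y) = _
    rw [wl_right hH hw hxw hyw, map_smul, wl_left hH hdw hxdw hydw, smul_smul, QuadraticMap.map_smul, smul_eq_mul]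
    congr 1
    field_simp
  · intro z hz hz'
    show wl Q x y (d • w) (wl Q x y w z) = _
    have hcw : polar Q x (z - ((Q w)⁻¹ * polar Q w z) • w) = 0 := by
      rw [polar_sub_right, polar_smul_right, hz, hxw, smul_zero, sub_zero]
    have hcw' : polar Q y (z - ((Q w)⁻¹ * polar Q w z) • w) = 0 := by
      rw [polar_sub_right, polar_smul_right, hz', hyw, smul_zero, sub_zero]
    rw [wl_perp hH hw hxw hyw hz hz', wl_perp hH hdw hxdw hydw hcw hcw', QuadraticMap.map_smul, smul_eq_mul,
      polar_smul_left, polar_sub_right, polar_smul_right, polar_self', smul_smul, smul_eq_mul, smul_eq_mul]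
    have h1 : (d * d * Q w)⁻¹ * (d * (polar Q w z - (Q w)⁻¹ * polar Q w z * (2 * Q w))) * d =
        -((Q w)⁻¹ * polar Q w z) := by
      field_simp
      ring
    rw [h1]
    module

/-- **The orthogonal frame.** -/
theorem ps_orth [FiniteDimensional F V] [Finite F] (hG : Good Q) (h2 : (2 : F) ≠ 0) (h6 : 6 ≤ Module.finrank F V) :
    PS (polarBilin Q) Q 1 (E Q) where
  e2 := by ring
  two := h2
  symm x y := by
    rw [one_mul]
    exact polar_comm Q y x
  nd := hG.nondeg
  q_smul c x := by rw [QuadraticMap.map_smul, smul_eq_mul]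
  q_add x y hxy := by
    have h1 : polar Q x y = 0 := hxy
    rw [Q_add, h1, add_zero]
  q_fix w x hw hwx := by
    have h1 : polar Q w x = 1 := hwx
    rw [sub_eq_add_neg, Q_add, QuadraticMap.map_neg, QuadraticMap.map_smul, hw, polar_neg_right, polar_smul_right,
      polar_comm, h1]
    simp
  diag x := by
    rw [one_mul]
    exact polar_self' x
  isoB g hg x y := polar_map (E_le_O hg) x y
  isoq g hg x := mem_O.1 (E_le_O hg) x
  sg u z hu hz := ⟨sg Q u z, sg_mem_E u z, fun x => by
    rw [sg_apply hu hz, one_mul]; rfl⟩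
  tor x y hx hy hxy d hd := by
    refine orth_tor hG hx hy hxy ?_ hd
    have hH : Hyp Q x y := ⟨hx, hy, hxy⟩
    by_contra hcon
    push Not at hcon
    have hT : ∀ t ∈ perp Q (Submodule.span F (Set.range ![x, y])), Q t = 0 := by
      intro t ht
      by_contra ht0
      exact hcon t ht0 (ht x (Submodule.subset_span ⟨0, rfl⟩)) (ht y (Submodule.subset_span ⟨1, rfl⟩))
    have h1 := le_perp_of_ts hT
    rw [perp_perp hG.nondeg] at h1
    have h3 := Submodule.finrank_mono h1
    have h4 := finrank_perp_add hG.nondeg (Submodule.span F (Set.range ![x, y]))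
    have h5 : Module.finrank F (Submodule.span F (Set.range ![x, y])) ≤ 2 := by
      have := finrank_range_le_card (R := F) ![x, y]
      simpa [Set.finrank] using this
    omega
  hyp w v w' v' hp hp' := by
    obtain ⟨hli, -⟩ := hp_fam hp
    obtain ⟨hli', -⟩ := hp_fam hp'
    have e1 : ∀ {w v : Fin 2 → V}, HP (polarBilin Q) Q w v → ∀ i, Q ((![w 0, w 1, v 0, v 1] : Fin 4 → V) i) = 0 := by
      intro w v hp i
      fin_cases i
      · exact hp.qw 0
      · exact hp.qw 1
      · exact hp.qv 0
      · exact hp.qv 1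
    have e2 : ∀ i j, polar Q ((![w 0, w 1, v 0, v 1] : Fin 4 → V) i) ((![w 0, w 1, v 0, v 1] : Fin 4 → V) j) =
        polar Q ((![w' 0, w' 1, v' 0, v' 1] : Fin 4 → V) i) ((![w' 0, w' 1, v' 0, v' 1] : Fin 4 → V) j) := by
      have h7 : ∀ {w v : Fin 2 → V}, HP (polarBilin Q) Q w v →
          (∀ i j, polar Q (w i) (v j) = if i = j then 1 else 0) ∧ (∀ i j, polar Q (w i) (w j) = 0) ∧
          (∀ i j, polar Q (v i) (v j) = 0) ∧ (∀ i j, polar Q (v i) (w j) = if i = j then 1 else 0) := by
        intro w v hp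
        refine ⟨hp.wv, hp.ww, hp.vv, fun i j => ?_⟩
        have := hp.wv j i
        rw [polarBilin_apply_apply] at this
        rw [polar_comm, this]
        by_cases hij : i = j
        · rw [if_pos hij, if_pos hij.symm]
        · rw [if_neg hij, if_neg fun h => hij h.symm]
      obtain ⟨a1, a2, a3, a4⟩ := h7 hp
      obtain ⟨b1, b2, b3, b4⟩ := h7 hp'
      intro i j
      fin_cases i <;> fin_cases j <;> simp [a1, a2, a3, a4, b1, b2, b3, b4]
    obtain ⟨g, hg, hgi⟩ := exists_E_map hG _ _ hli hli' (fun i => by rw [e1 hp, e1 hp']) e2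
      (fun c _ => hp_universal hG.nondeg h2 h6 hp c)
    refine ⟨g, hg, fun i => ?_, fun i => ?_⟩
    · fin_cases i
      · exact hgi 0
      · exact hgi 1
    · fin_cases i
      · exact hgi 2
      · exact hgi 3
  ex := by
    obtain ⟨x, y, hH⟩ := hG.exists_hyp
    obtain ⟨w, hw0, hw, hxw, hyw⟩ := hG.perp x y hH
    obtain ⟨d0, hd0⟩ := hG.nondeg.exists_polar_eq hw0 1
    obtain ⟨d1, hd1⟩ : ∃ d1, d1 = d0 - polar Q y d0 • x - polar Q x d0 • y := ⟨_, rfl⟩
    have hxx : polar Q x x = 0 := polar_self_of_sing hH.left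
    have hyy : polar Q y y = 0 := polar_self_of_sing hH.right
    have hww : polar Q w w = 0 := polar_self_of_sing hw
    have hwx : polar Q w x = 0 := by rw [polar_comm]; exact hxw
    have hwy : polar Q w y = 0 := by rw [polar_comm]; exact hyw
    have hxd : polar Q x d1 = 0 := by
      rw [hd1, polar_sub_right, polar_sub_right, polar_smul_right, polar_smul_right, hxx, hH.pair]; simp
    have hyd : polar Q y d1 = 0 := by
      rw [hd1, polar_sub_right, polar_sub_right, polar_smul_right, polar_smul_right, hyy, hH.pair']; simp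
    have hwd : polar Q w d1 = 1 := by
      rw [hd1, polar_sub_right, polar_sub_right, polar_smul_right, polar_smul_right, hwx, hwy, hd0]; simp
    obtain ⟨d, hd⟩ : ∃ d, d = d1 - Q d1 • w := ⟨_, rfl⟩
    have hxd' : polar Q x d = 0 := by rw [hd, polar_sub_right, polar_smul_right, hxd, hxw]; simp
    have hyd' : polar Q y d = 0 := by rw [hd, polar_sub_right, polar_smul_right, hyd, hyw]; simp
    have hwd' : polar Q w d = 1 := by rw [hd, polar_sub_right, polar_smul_right, hwd, hww]; simp
    have hQd : Q d = 0 := by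
      rw [hd, sub_eq_add_neg, Q_add, QuadraticMap.map_neg, QuadraticMap.map_smul, hw, polar_neg_right,
        polar_smul_right, polar_comm, hwd]
      simp
    have hdd : polar Q d d = 0 := polar_self_of_sing hQd
    have hdy : polar Q d y = 0 := by rw [polar_comm]; exact hyd'
    refine ⟨![x, w], ![y, d], ?_, ?_, ?_, ?_, ?_⟩
    · intro i; fin_cases i
      · exact hH.left
      · exact hw
    · intro i; fin_cases i
      · exact hH.right
      · exact hQd
    · intro i j; fin_cases i <;> fin_cases j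
      · exact hxx
      · exact hxw
      · exact hwx
      · exact hww
    · intro i j; fin_cases i <;> fin_cases j
      · exact hyy
      · exact hyd'
      · exact hdy
      · exact hdd
    · intro i j; fin_cases i <;> fin_cases j
      · exact hH.pair
      · exact hxd'
      · exact hwy
      · exact hwd'
  big := Or.inr ⟨rfl, hG.dim, fun x y => Q_add x y⟩
  cen g hg := by
    have hmem : (g.1.toEquiv : Equiv.Perm V) ∈ Gam Q := by
      refine ⟨RingEquiv.refl F, 1, one_ne_zero, fun u v => map_add g.1 u v, fun a v => map_smul g.1 a v, fun v => ?_⟩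
      rw [one_mul]
      exact mem_O.1 (E_le_O g.2) v
    obtain ⟨a, -, ha⟩ := exists_scalar_of_conjE hG ⟨g.1.toEquiv, hmem⟩ (by
      apply MulEquiv.ext
      intro k
      apply Subtype.ext
      rw [coe_conjE]
      apply LinearEquiv.ext
      intro v
      obtain ⟨y, rfl⟩ := g.1.surjective v
      have h1 := conjLin_apply' (⟨g.1.toEquiv, hmem⟩ : Gam Q) k.1 y
      have h3 := congrArg (fun t : ↥(E Q) => t.1 y) (Subgroup.mem_center_iff.1 hg k)
      have h4 : k.1 (g.1 y) = g.1 (k.1 y) := h3
      exact h1.trans h4.symm)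
    refine ⟨a, ?_, ha⟩
    obtain ⟨x, y, hH⟩ := hG.exists_hyp
    have h1 := polar_map (E_le_O g.2) x y
    have h3 : g.1 x = a • x := ha x
    have h4 : g.1 y = a • y := ha y
    rw [h3, h4, polar_smul_left, polar_smul_right, hH.pair] at h1
    simpa using h1

end

end Cfsg.Agent.H877.Pol
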