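import Cfsg.Agent.H877.PolO

/-!
# The rows `POmega` of S4834 (helper877)
-/

set_option autoImplicit false

namespace Cfsg.Agent.H877.Pol

open Matrix MatrixGroups QuadraticMap
open Cfsg.Agent.LieClassical.OrthCore Cfsg.Agent.LieClassical.OrthTrans
  Cfsg.Agent.LieClassical.OrthForms Cfsg.Agent.ClassicalGeometry.OrthSemi Cfsg.Agent.ClassicalGeometry.OrthSemiForms

universe u v

/-- An element of `p`-power order, `p` larger than the index of `R`, lies in `R`. -/
theorem mem_of_index_lt' {p : ℕ} {G : Type*} [Group G] {R : Subgroup G} (h0 : R.index ≠ 0) (hp : p.Prime)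
    (hlt : R.index < p) {x : G} {k : ℕ} (hx : orderOf x = p ^ k) : x ∈ R := by
  obtain ⟨n, hn0, hn, hm⟩ := Subgroup.exists_pow_mem_of_index_ne_zero h0 x
  have hcop : Nat.Coprime n (p ^ k) := by
    apply Nat.Coprime.pow_right
    rw [Nat.coprime_comm, Nat.Prime.coprime_iff_not_dvd hp]
    exact fun hd => absurd (Nat.le_of_dvd hn0 hd) (by omega)
  obtain ⟨l, hl⟩ := exists_pow_eq_self_of_coprime (x := x) (n := n) (by rwa [hx])
  rw [← hl]
  exact R.pow_mem hm l

section

variable {F : Type u} {V : Type v} [Field F] [Finite F] [AddCommGroup V] [Module F V] [Finite V]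
  {Q : QuadraticForm F V} {p : ℕ} [Fact p.Prime] [CharP F p]

theorem orth_good (hG : LieClassical.OrthTrans.Good Q) (h6 : 6 ≤ Module.finrank F V) (hp3 : 3 < p)
    (h0 : (Psi Q).range.index ≠ 0) (hlt : (Psi Q).range.index < p)
    (hπ : letI := Fintype.ofFinite F; ∃ π : PGL(2, F) → ℂ, H687.IsCusp p F π) :
    H687.Good p (↥(E Q) ⧸ Subgroup.center ↥(E Q)) := by
  obtain ⟨π, hπ⟩ := hπ
  have hfd : FiniteDimensional F V := Module.Finite.of_finite
  have h2 : (2 : F) ≠ 0 := by
    intro h0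
    have h1 : ((2 : ℕ) : F) = 0 := by exact_mod_cast h0
    rw [CharP.cast_eq_zero_iff F p] at h1
    have := Nat.le_of_dvd (by norm_num) h1
    omega
  refine (ps_orth hG h2 h6).good_orth rfl hp3 ?_ hπ
  rintro φ ⟨k, hk⟩
  obtain ⟨g, rfl⟩ := mem_of_index_lt' h0 Fact.out hlt hk
  obtain ⟨θ, l, hg⟩ := g.2
  refine ⟨g.1, θ, l, ⟨hg.ne, g.1.injective, hg.add, hg.smul, fun x y => hg.polar x y, hg.form⟩, ?_, k, ?_⟩
  · intro t
    refine ⟨conjE Q g t, rfl, fun x => ?_⟩
    rw [coe_conjE, conjLin_apply']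
  · have h1 : Psi Q (g ^ p ^ k) = 1 := by rw [map_pow, ← hk, pow_orderOf_eq_one]
    obtain ⟨a, ha, hga⟩ := exists_scalar_of_conjE hG (g ^ p ^ k) (eq_one_of_quotAut (commutator_E hG) _ h1)
    have hga' : ∀ v, (g.1 ^ p ^ k) v = a • v := hga
    have hs' : BpCl.Semi θ g.1 := { add := hg.add, smul := hg.smul }
    obtain ⟨x, y, hH⟩ := hG.exists_hyp
    ext b
    rw [iterate_eq_pow]
    have h5 := hs'.pow_smul (p ^ k) b x
    rw [hga', hga', smul_smul, smul_smul] at h5
    have h6 : (a * b - θ^[p ^ k] b * a) • x = 0 := by rw [sub_smul, h5, sub_self]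
    have h7 := sub_eq_zero.1 ((smul_eq_zero.1 h6).resolve_right hH.left_ne)
    rw [mul_comm] at h7
    exact (mul_right_cancel₀ ha h7).symm

end

section rows

variable {F : Type u} [Field F] [Finite F] {m p : ℕ} [Fact p.Prime] [CharP F p]

theorem two_ne_zero_of (p : ℕ) [CharP F p] (hp3 : 3 < p) : (2 : F) ≠ 0 := by
  intro h0
  have h1 : ((2 : ℕ) : F) = 0 := by exact_mod_cast h0
  rw [CharP.cast_eq_zero_iff F p] at h1
  have := Nat.le_of_dvd (by norm_num) h1
  omega

/-- **Row `POmega`, odd dimension.** -/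
theorem good_po_odd (hm : 3 ≤ m) (hp3 : 3 < p)
    (hπ : letI := Fintype.ofFinite F; ∃ π : PGL(2, F) → ℂ, H687.IsCusp p F π) :
    H687.Good p (Cfsg.POmega F (Cfsg.quadFormOdd m F)) := by
  have := Fintype.ofFinite F
  have h2 := two_ne_zero_of (F := F) p hp3
  have hG := good_odd (F := F) (m := m) (by omega) h2
  have htop := MonoidHom.range_eq_top.2 (Cfsg.Agent.AutOrth.Final.surjective_odd hm h2)
  rw [← coe_oddForm]
  refine H687.Good.of_equiv (pomegaEquiv hG) (orth_good hG ?_ hp3 ?_ ?_ hπ)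
  · simp; omega
  · rw [htop, Subgroup.index_top]; norm_num
  · rw [htop, Subgroup.index_top]; omega

/-- **Row `POmega`, plus type.** -/
theorem good_po_plus (hm : 4 ≤ m) (hp3 : 3 < p)
    (hπ : letI := Fintype.ofFinite F; ∃ π : PGL(2, F) → ℂ, H687.IsCusp p F π) :
    H687.Good p (Cfsg.POmega F (Cfsg.quadFormPlus m F)) := by
  have := Fintype.ofFinite F
  have hG := good_plus (F := F) (m := m) (by omega)
  rw [← coe_plusForm]
  by_cases h4 : m = 4
  · subst h4
    refine H687.Good.of_equiv (pomegaEquiv hG) (orth_good hG ?_ hp3 ?_ ?_ hπ)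
    · simp
    · rw [Cfsg.Agent.AutOrth.Final.index_plus_four]; norm_num
    · rw [Cfsg.Agent.AutOrth.Final.index_plus_four]
      omega
  · have htop := MonoidHom.range_eq_top.2 (Cfsg.Agent.AutOrth.Final.surjective_plus (F := F) (m := m) (by omega))
    refine H687.Good.of_equiv (pomegaEquiv hG) (orth_good hG ?_ hp3 ?_ ?_ hπ)
    · simp; omega
    · rw [htop, Subgroup.index_top]; norm_num
    · rw [htop, Subgroup.index_top]; omega

/-- **Row `POmega`, minus type.** -/
theorem good_po_minus (hm : 4 ≤ m) {a b : F}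
    (hab : ∀ z₁ z₂ : F, z₁ ^ 2 + a * z₁ * z₂ + b * z₂ ^ 2 = 0 → z₁ = 0 ∧ z₂ = 0) (hp3 : 3 < p)
    (hπ : letI := Fintype.ofFinite F; ∃ π : PGL(2, F) → ℂ, H687.IsCusp p F π) :
    H687.Good p (Cfsg.POmega F (Cfsg.quadFormMinus (m - 1) F a b)) := by
  have := Fintype.ofFinite F
  have hG := good_minus (F := F) (m := m - 1) (by omega) a b hab
  have htop := MonoidHom.range_eq_top.2 (Cfsg.Agent.AutOrth.Final.surjective_minus (F := F) (m := m - 1) (by omega) hab)
  rw [← coe_minusForm]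
  refine H687.Good.of_equiv (pomegaEquiv hG) (orth_good hG ?_ hp3 ?_ ?_ hπ)
  · simp; omega
  · rw [htop, Subgroup.index_top]; norm_num
  · rw [htop, Subgroup.index_top]; omega

end rows

end Cfsg.Agent.H877.Pol
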