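import Cfsg.Agent.H412.Tc.HeisDefs

/-!
# S3621: the action of `cl2 A` on `B / Kˣ` (helper877)
-/

set_option autoImplicit false

namespace Cfsg.Agent.H877.TcAct

open Cfsg.Agent.H412.Tc Equiv

universe u

variable {K V : Type u} [Field K] [Finite K] [AddCommGroup V] [Finite V] [Module K V]
  {A B : Subgroup (GV V)} {r : ℕ}

/-- The scalars in `B`. -/
def Zs (K : Type u) {V : Type u} [Field K] [AddCommGroup V] [Module K V] (B : Subgroup (GV V)) : Subgroup B :=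
  (scal K V).range.subgroupOf B

omit [Finite K] [Finite V] in
theorem mem_Zs {b : B} : b ∈ Zs K B ↔ ∃ c : Kˣ, scal K V c = b.1 := by
  unfold Zs
  rw [Subgroup.mem_subgroupOf, MonoidHom.mem_range]

omit [Finite K] [Finite V] in
theorem normal_Zs (hB : Heis K V r B) : (Zs K B).Normal := by
  constructor
  intro n hn g
  rw [mem_Zs] at hn ⊢
  obtain ⟨c, hc⟩ := hn
  refine ⟨c, ?_⟩
  show _ = g.1 * n.1 * g.1⁻¹
  rw [← hc, (hB.linb g.2).scal_comm, mul_inv_cancel_right]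

omit [Finite K] [Finite V] in
/-- Equality in the quotient. -/
theorem mk_eq_iff {a b : B} : (QuotientGroup.mk a : B ⧸ Zs K B) = QuotientGroup.mk b ↔
    ∃ c : Kˣ, b.1 = a.1 * scal K V c := by
  rw [QuotientGroup.eq, mem_Zs]
  constructor
  · rintro ⟨c, hc⟩
    refine ⟨c, ?_⟩
    rw [hc]
    show b.1 = a.1 * (a.1⁻¹ * b.1)
    rw [mul_inv_cancel_left]
  · rintro ⟨c, hc⟩
    refine ⟨c, ?_⟩
    show _ = a.1⁻¹ * b.1
    rw [hc, inv_mul_cancel_left]

omit [Finite K] [Finite V] in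
theorem semi_scal {g : GV V} (hg : Semi K g) (c : Kˣ) : ∃ d : Kˣ, g * scal K V c * g⁻¹ = scal K V d := by
  obtain ⟨σ, hσ⟩ := hg
  refine ⟨Units.map (σ : K →* K) c, GV_ext fun v => ?_⟩
  rw [mul_smul, mul_smul, scal_smul, hσ, smul_inv_smul, scal_smul]
  rfl

variable (K) in
/-- The action on `B / Kˣ`. -/
noncomputable def act (B : Subgroup (GV V)) {H : Subgroup (GV V)} (hs : ∀ h ∈ H, Semi K h)
    (hn : ∀ h ∈ H, ∀ b ∈ B, h * b * h⁻¹ ∈ B) : H →* Perm (B ⧸ Zs K B) :=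
  MonoidHom.toHomPerm
    { toFun := fun h => Quotient.map' (fun b => (⟨h.1 * b.1 * h.1⁻¹, hn h.1 h.2 b.1 b.2⟩ : B)) (by
        intro a b hab
        have h1 : (QuotientGroup.mk a : B ⧸ Zs K B) = QuotientGroup.mk b := Quotient.sound' hab
        obtain ⟨c, hc⟩ := mk_eq_iff.1 h1
        apply Quotient.exact'
        show (QuotientGroup.mk _ : B ⧸ Zs K B) = QuotientGroup.mk _
        rw [mk_eq_iff]
        obtain ⟨d, hd⟩ := semi_scal (hs h.1 h.2) c
        refine ⟨d, ?_⟩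
        show h.1 * b.1 * h.1⁻¹ = h.1 * a.1 * h.1⁻¹ * scal K V d
        rw [hc, ← hd]; group)
      map_one' := by
        funext x
        induction x using Quotient.inductionOn' with
        | h x =>
        refine congrArg (QuotientGroup.mk : B → B ⧸ Zs K B) (a₂ := x) (Subtype.ext ?_)
        show (1 : GV V) * x.1 * 1⁻¹ = x.1
        rw [one_mul, inv_one, mul_one]
      map_mul' := by
        intro h k
        funext x
        induction x using Quotient.inductionOn' with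
        | h x =>
        refine congrArg (QuotientGroup.mk : B → B ⧸ Zs K B) (Subtype.ext ?_)
        show (h.1 * k.1) * x.1 * (h.1 * k.1)⁻¹ = h.1 * (k.1 * x.1 * k.1⁻¹) * h.1⁻¹
        group }

omit [Finite K] [Finite V] in
theorem act_mk {H : Subgroup (GV V)} (hs : ∀ h ∈ H, Semi K h)
    (hn : ∀ h ∈ H, ∀ b ∈ B, h * b * h⁻¹ ∈ B) (h : H) (b : B) :
    act K B hs hn h (QuotientGroup.mk b : B ⧸ Zs K B) =
      QuotientGroup.mk ⟨h.1 * b.1 * h.1⁻¹, hn h.1 h.2 b.1 b.2⟩ := rfl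

omit [Finite K] [Finite V] in
/-- The kernel of the action. -/
theorem act_eq_one {H : Subgroup (GV V)} (hB : Heis K V r B) (hs : ∀ h ∈ H, Semi K h)
    (hn : ∀ h ∈ H, ∀ b ∈ B, h * b * h⁻¹ ∈ B) {h : H} (hh : act K B hs hn h = 1) :
    ∀ b ∈ B, ∃ c : Kˣ, h.1 * b * h.1⁻¹ = scal K V c * b := by
  intro b hb
  have h1 := congrArg (fun f : Perm (B ⧸ Zs K B) => f (QuotientGroup.mk ⟨b, hb⟩)) hh
  simp only [act_mk] at h1
  have h2 : (QuotientGroup.mk (⟨h.1 * b * h.1⁻¹, hn h.1 h.2 b hb⟩ : B) : B ⧸ Zs K B) = QuotientGroup.mk ⟨b, hb⟩ := h1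
  obtain ⟨c, hc⟩ := mk_eq_iff.1 h2.symm
  refine ⟨c, ?_⟩
  rw [← (hB.linb hb).scal_comm]
  exact hc

end Cfsg.Agent.H877.TcAct
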