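import Cfsg.Agent.H877.TcAct

/-!
# S3621: the final step of the main case (helper877)
-/

set_option autoImplicit false

namespace Cfsg.Agent.H877

open Cfsg.Agent.H412.Tc Cfsg.Agent.H877.TcAct Equiv

universe u

variable {K V : Type u} [Field K] [Finite K] [AddCommGroup V] [Finite V] [Module K V]
  {A B : Subgroup (GV V)} {r : ℕ}

omit [Finite K] [Module K V] in
variable (V) in
theorem Finish.finGV : Finite (GV V) := by
  have : Finite (AddMonoid.End V) := DFunLike.finite (V →+ V)
  infer_instance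

theorem Finish.card_lt (hB : Heis K V r B) (hg : ∃ x v, Good K r B x v) :
    Nat.card (B ⧸ Zs K B) < Nat.card V := by
  classical
  have := Fintype.ofFinite V
  have := Finish.finGV V
  have : Fact r.Prime := ⟨hB.prime⟩
  obtain ⟨x, v, hx, hxr, hxs, hv, hxv, hb⟩ := hg
  have hnt : Nontrivial V := ⟨v, 0, hv⟩
  have hrpos : 0 < r := hB.prime.pos
  obtain ⟨ω, hω1, hωr⟩ := hB.exists_root hx hxs
  have hq : r ≤ Nat.card Kˣ := by
    have h1 : orderOf ω = r := orderOf_eq_prime_iff.2 ⟨hωr, hω1⟩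
    rw [← h1, ← Nat.card_zpowers]
    exact Nat.card_le_card_of_injective _ Subtype.val_injective
  -- the stabilizer
  have hst : Nat.card (MulAction.stabilizer B v) ≤ r := by
    have h1 : Nat.card (MulAction.stabilizer B v) ≤ Nat.card (Subgroup.zpowers x) := by
      refine Nat.card_le_card_of_injective (fun b => ⟨b.1.1, ?_⟩) ?_
      · have h2 : b.1.1 • v = v := b.2
        obtain ⟨i, c, hc⟩ := hb b.1.1 b.1.2 ⟨1, by rw [h2, Units.val_one, one_smul]⟩
        have h3 : ∀ i : ℕ, (x ^ i) • v = v := by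
          intro i
          induction i with
          | zero => rw [pow_zero, one_smul]
          | succ n ih => rw [pow_succ, mul_smul, hxv, ih]
        have h4 : (c : K) • v = (1 : K) • v := by
          rw [hc, mul_smul, h3, scal_smul] at h2
          rw [h2, one_smul]
        have h5 : c = 1 := Units.ext (smul_left_injective K hv h4)
        rw [hc, h5, map_one, one_mul]
        exact Subgroup.npow_mem_zpowers x i
      · intro a b hab
        apply Subtype.ext
        apply Subtype.ext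
        exact congrArg (fun y : Subgroup.zpowers x => y.1) hab
    refine h1.trans ?_
    rw [Nat.card_zpowers]
    exact Nat.le_of_dvd hrpos (orderOf_dvd_of_pow_eq_one hxr)
  have horb : Nat.card (MulAction.orbit B v) < Nat.card V := by
    have h1 : (0 : V) ∉ MulAction.orbit B v := by
      rintro ⟨b, hb⟩
      have h2 : b.1 • v = 0 := hb
      exact hv ((smul_eq_zero_iff_eq b.1).1 h2)
    rw [Nat.card_eq_fintype_card, Nat.card_eq_fintype_card]
    exact Fintype.card_subtype_lt h1
  have hB1 : Nat.card B = Nat.card (MulAction.orbit B v) * Nat.card (MulAction.stabilizer B v) := by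
    rw [← Nat.card_prod]
    exact Nat.card_congr (MulAction.orbitProdStabilizerEquivGroup B v).symm
  have hZ : Nat.card (Zs K B) = Nat.card Kˣ := by
    refine (Nat.card_congr (Equiv.ofBijective (fun c : Kˣ => (⟨⟨scal K V c, hB.scal_mem c⟩,
      mem_Zs.2 ⟨c, rfl⟩⟩ : Zs K B)) ⟨?_, ?_⟩)).symm
    · intro c d hcd
      exact scal_inj (V := V) (congrArg (fun y : Zs K B => y.1.1) hcd)
    · rintro ⟨b, hb⟩
      obtain ⟨c, hc⟩ := mem_Zs.1 hb
      exact ⟨c, Subtype.ext (Subtype.ext hc)⟩
  have h2 := Subgroup.card_eq_card_quotient_mul_card_subgroup (Zs K B)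
  rw [hZ, hB1] at h2
  by_contra hcon
  push Not at hcon
  have hpos : 0 < Nat.card Kˣ := Nat.card_pos
  have h3 : Nat.card (MulAction.orbit B v) * Nat.card (MulAction.stabilizer B v) ≤
      Nat.card (MulAction.orbit B v) * Nat.card Kˣ :=
    Nat.mul_le_mul_left _ (hst.trans hq)
  have h4 : Nat.card (MulAction.orbit B v) * Nat.card Kˣ < Nat.card (B ⧸ Zs K B) * Nat.card Kˣ :=
    Nat.mul_lt_mul_of_pos_right (lt_of_lt_of_le horb hcon) hpos
  omega

theorem Finish.main (S : SetB K V A B r) (hs : ∀ h ∈ cl2 A, Semi K h)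
    (hn : ∀ h ∈ cl2 A, ∀ b ∈ B, h * b * h⁻¹ ∈ B) (hp : PairAgree K A B)
    (hg : ∃ x v, Good K r B x v) : Concl K A B := by
  refine ⟨Perm (B ⧸ Zs K B), inferInstance, act K B hs hn, ?_,
    fun h hh => act_eq_one S.heis hs hn hh⟩
  have := Finish.finGV V
  have hBs : Group.IsSolvable B := solvable_of_le S.le S.solv
  refine IH.reg S.ih (Finish.card_lt S.heis hg) (act K B hs hn) (A.subgroupOf (cl2 A)) ?_
    (MulAction.toPermHom B (B ⧸ Zs K B)).range ?_ ?_ ?_ (QuotientGroup.mk 1) ?_ ?_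
  · have := S.solv
    exact Group.isSolvable_of_isSolvable_injective
      (f := (Subgroup.subgroupOfEquivOfLe (le_cl2 A)).toMonoidHom)
      (Subgroup.subgroupOfEquivOfLe (le_cl2 A)).injective
  · exact Group.isSolvable_of_surjective
      (f := (MulAction.toPermHom B (B ⧸ Zs K B)).rangeRestrict)
      (MonoidHom.rangeRestrict_surjective _)
  · intro x y
    obtain ⟨b, hb⟩ := MulAction.exists_smul_eq B x y
    exact ⟨_, ⟨b, rfl⟩, hb⟩
  · rintro h _ ⟨b, rfl⟩
    refine ⟨⟨h.1 * b.1 * h.1⁻¹, hn h.1 h.2 b.1 b.2⟩, ?_⟩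
    rw [eq_mul_inv_iff_mul_eq]
    ext x
    induction x using QuotientGroup.induction_on with
    | H x =>
    show (QuotientGroup.mk _ : B ⧸ Zs K B) = QuotientGroup.mk _
    refine congrArg (QuotientGroup.mk : B → B ⧸ Zs K B) (Subtype.ext ?_)
    show (h.1 * b.1 * h.1⁻¹) * (h.1 * x.1 * h.1⁻¹) = h.1 * (b.1 * x.1) * h.1⁻¹
    group
  · intro h
    rw [act_mk]
    refine congrArg (QuotientGroup.mk : B → B ⧸ Zs K B) (Subtype.ext ?_)
    show h.1 * 1 * h.1⁻¹ = 1
    rw [mul_one, mul_inv_cancel]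
  · intro h x y
    induction x using QuotientGroup.induction_on with
    | H x =>
    induction y using QuotientGroup.induction_on with
    | H y =>
    obtain ⟨g, hg, ⟨c, hc⟩, d, hd⟩ := hp h.1 h.2 x.1 x.2 y.1 y.2
    refine ⟨⟨g, le_cl2 A hg⟩, hg, ?_, ?_⟩
    · rw [act_mk, act_mk, Eq.comm, mk_eq_iff]
      refine ⟨c, ?_⟩
      show g * x.1 * g⁻¹ = (h.1 * x.1 * h.1⁻¹) * scal K V c
      rw [(S.heis.linb (hn h.1 h.2 x.1 x.2)).scal_comm]
      exact hc
    · rw [act_mk, act_mk, Eq.comm, mk_eq_iff]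
      refine ⟨d, ?_⟩
      show g * y.1 * g⁻¹ = (h.1 * y.1 * h.1⁻¹) * scal K V d
      rw [(S.heis.linb (hn h.1 h.2 y.1 y.2)).scal_comm]
      exact hd

end Cfsg.Agent.H877
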